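import Mathlib
import Cfsg.Agent.Lib.O8C.Geo

/-! Centralisers of the elements of a point (helper80). -/

set_option autoImplicit false

namespace H80.O8

open Subgroup H68

variable {G : Type*} [Group G]

theorem exists_odd_pow [Finite G] {F : Subgroup G} {r : G} (h : ∀ j, r ^ (2 * j) ∈ F → r ^ j ∈ F) :
    ∃ j, r ^ (2 * j + 1) ∈ F := by
  obtain ⟨a, m, ⟨j, rfl⟩, e⟩ := Nat.exists_eq_two_pow_mul_odd (orderOf_pos r).ne'
  have : r ^ (2 ^ a * (2 * j + 1)) ∈ F := by rw [← e, pow_orderOf_eq_one]; exact one_mem _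
  clear e
  induction a with
  | zero => exact ⟨j, by simpa using this⟩
  | succ a ih => exact ih (h _ (by rwa [pow_succ', mul_assoc] at this))

theorem Geo.cent_le [Finite G] {D : Set G} {Qd : G → Subgroup G} {P : Set (Subgroup G)} (Γ : Geo D Qd P)
    {V M : Subgroup G} (hV : V ∈ P) (VM : V ≤ M) (good : ∀ d ∈ D, d ∈ M → ∀ g, g * d * g⁻¹ ∈ M → g ∈ M)
    (hR : ∀ k ∈ M, Reach D P V (cj k V)) {b : G} (hb : b ∈ V) (b1 : b ≠ 1) : centralizer {b} ≤ M := by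
  by_contra hn
  obtain ⟨F, -, ⟨FV, F1, FM⟩, hmax⟩ := Finite.exists_le_maximal
    (p := fun F : Subgroup G => F ≤ V ∧ F ≠ ⊥ ∧ ¬centralizer (F : Set G) ≤ M) (a := zpowers b)
    ⟨zpowers_le.2 hb, by simpa using b1, fun h => hn fun k hk => h (by
      rintro _ ⟨n, rfl⟩
      exact (Commute.zpow_left (hk b rfl) n).eq)⟩
  obtain ⟨k0, k0K, k0M⟩ := SetLike.not_le_iff_exists.1 FM
  obtain ⟨⟨b0, hb0⟩, b01⟩ := ne_bot_iff_exists_ne_one.1 F1
  replace b01 : b0 ≠ 1 := fun e => b01 (Subtype.ext e)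
  have cf : ∀ k ∈ centralizer (F : Set G), ∀ f ∈ F, k * f * k⁻¹ = f := fun k hk f hf => by
    rw [← hk f hf, mul_inv_cancel_right]
  have hD : ∀ f ∈ F, f ∉ D := fun f hf h => k0M (good f h (VM (FV hf)) k0 (by rw [cf k0 k0K f hf]; exact VM (FV hf)))
  have VK : V ≤ centralizer (F : Set G) := fun v hv f hf => Γ.comm hV (FV hf) hv
  have nrm : ∀ k ∈ centralizer (F : Set G), k ∈ M → cj k V = V := fun k hk hM =>
    Γ.eq_of_mem hV (hR k hM) (FV hb0) (mem_cj_of_comm (hk b0 hb0).symm (FV hb0)) b01 (hD b0 hb0)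
  have star : ∀ w ∈ V, w ∉ F → ∀ k ∈ centralizer (F : Set G), w * k = k * w → k ∈ M := fun w hw wF k hk e => by
    by_contra n
    refine wF (hmax (y := F ⊔ zpowers w) ⟨sup_le FV (zpowers_le.2 hw), fun h => F1 (le_bot_iff.1 (h ▸ le_sup_left)),
      fun h => n (h fun x hx => ?_)⟩ le_sup_left (mem_sup_right (mem_zpowers w)))
    exact mem_centralizer_singleton_iff.1 ((sup_le (fun f hf => mem_centralizer_singleton_iff.2 (hk f hf))
      (zpowers_le.2 (mem_centralizer_singleton_iff.2 e)) : F ⊔ zpowers w ≤ centralizer {k}) hx)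
  have star2 : ∀ w ∈ V, w ∉ F → ∀ k ∈ centralizer (F : Set G), k * w * k⁻¹ ∈ M → k ∈ M := fun w hw wF k hk e => by
    have uK := mul_mem (mul_mem hk (VK hw)) (inv_mem hk)
    have uu : k * w * k⁻¹ * (k * w * k⁻¹) = 1 := by rw [conj_mul, Γ.sq V hV w hw]; group
    generalize hu : k * w * k⁻¹ = u at *
    let σ : ↥(D ∩ V) → ↥(D ∩ V) := fun d => ⟨u * d * u⁻¹, Γ.Dc _ d.2.1 u, (nrm u uK e).le (conj_mem_cj.2 d.2.2)⟩
    have iσ : Function.Involutive σ := fun d => Subtype.ext (by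
      change u * (u * d * u⁻¹) * u⁻¹ = d
      rw [show u * (u * d * u⁻¹) * u⁻¹ = u * u * d * (u * u)⁻¹ by group, uu]; group)
    have := Fintype.ofFinite ↥(D ∩ V)
    classical
    obtain ⟨d, hd⟩ := Equiv.Perm.exists_fixed_point_of_prime (p := 2) (n := 1) (σ := iσ.toPerm) (by
      rw [← Nat.card_eq_fintype_card, Nat.card_coe_set_eq, Γ.cD V hV]; norm_num) (Equiv.ext fun d => iσ d)
    have hd' : u * d * u⁻¹ = d := congrArg Subtype.val hd
    refine inv_mem_iff.1 (good d d.2.1 (VM d.2.2) k⁻¹ (star w hw wF _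
      (mul_mem (mul_mem (inv_mem hk) (VK d.2.2)) (inv_mem (inv_mem hk))) ?_))
    rw [← hu] at hd'
    calc w * (k⁻¹ * d * k⁻¹⁻¹) = k⁻¹ * (k * w * k⁻¹ * d * (k * w * k⁻¹)⁻¹) * k * w := by group
      _ = _ := by rw [hd', inv_inv]
  have star3 : ∀ w ∈ V, w ∉ F → ∀ k ∈ centralizer (F : Set G), k * w * k⁻¹ ∈ M → k * w * k⁻¹ ∈ V :=
    fun w hw wF k hk e => nrm k hk (star2 w hw wF k hk e) ▸ conj_mem_cj.2 hw
  obtain ⟨d, hd, dV, Fd⟩ := Γ.exists_perp hV FV hD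
  obtain ⟨e, he, eV, be⟩ : ∃ e ∈ D, e ∈ V ∧ b0 ∉ Qd e := by
    by_contra! h
    exact b01 (Γ.nondeg hV (FV hb0) h)
  have dF : d ∉ F := fun h => hD d h hd
  have eF : e ∉ F := fun h => hD e h he
  have dd := Γ.sq V hV d dV
  have ee : k0 * e * k0⁻¹ * (k0 * e * k0⁻¹) = 1 := by rw [conj_mul, Γ.sq V hV e eV]; group
  have rK := mul_mem (VK dV) (mul_mem (mul_mem k0K (VK eV)) (inv_mem k0K))
  have i1 := H9.conj_pow_of_inverts (H9.left_inverts dd ee)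
  have i2 := H9.conj_pow_of_inverts (H9.right_inverts dd ee)
  have e3 : k0 * e * k0⁻¹ = (d * (k0 * e * k0⁻¹))⁻¹ * d := by
    rw [mul_inv_rev, mul_assoc _ d⁻¹, inv_mul_cancel, mul_one, inv_eq_of_mul_eq_one_right ee]
  generalize d * (k0 * e * k0⁻¹) = r at *
  have c1 : ∀ j, r ^ j * d * (r ^ j)⁻¹ = r ^ (2 * j) * d := fun j => by
    rw [← i1, ← mul_assoc, ← mul_assoc, mul_assoc _ d d, dd, mul_one, ← pow_add, two_mul,
      inv_eq_of_mul_eq_one_right dd]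
  have c2 : ∀ j, r ^ j * (k0 * e * k0⁻¹) * (r ^ j)⁻¹ = r ^ (2 * j) * (k0 * e * k0⁻¹) := fun j => by
    rw [← i2, ← mul_assoc, ← mul_assoc, mul_assoc _ _ (k0 * e * k0⁻¹), ee, mul_one, ← pow_add, two_mul,
      inv_eq_of_mul_eq_one_right ee]
  obtain ⟨j, hj⟩ := exists_odd_pow (F := F) (r := r) fun j hj => by
    have cK := pow_mem rK j
    have cM := star2 d dV dF _ cK (c1 j ▸ VM (mul_mem (FV hj) dV))
    have cM' := star2 e eV eF _ (mul_mem (mul_mem (inv_mem k0K) cK) k0K) (by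
      rw [show k0⁻¹ * r ^ j * k0 * e * (k0⁻¹ * r ^ j * k0)⁻¹ = k0⁻¹ * (r ^ j * (k0 * e * k0⁻¹) * (r ^ j)⁻¹) * k0 by
        group, c2, ← cf k0 k0K _ hj]
      simpa [mul_assoc] using VM (mul_mem (FV hj) eV))
    have cV : r ^ j * d ∈ V := by
      have m := mul_mem cM (VM dV)
      obtain ⟨i, rfl | rfl⟩ := Nat.even_or_odd' j
      · rw [← c1] at m ⊢
        exact star3 d dV dF _ (pow_mem rK i) m
      · have : r ^ (2 * i + 1) * d = r ^ (i + 1) * k0 * e * (r ^ (i + 1) * k0)⁻¹ := by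
          rw [show r ^ (i + 1) * k0 * e * (r ^ (i + 1) * k0)⁻¹ = r ^ (i + 1) * (k0 * e * k0⁻¹) * (r ^ (i + 1))⁻¹ by
            group, c2, e3]
          group
        rw [this] at m ⊢
        exact star3 e eV eF _ (mul_mem (pow_mem rK _) k0K) m
    by_contra n
    exact k0M (inv_mem_iff.1 (star2 _ ((mul_mem_cancel_right dV).1 cV) n _ (inv_mem k0K) (by rwa [inv_inv])))
  have hK := mul_mem (inv_mem k0K) (pow_mem rK j)
  have e4 : k0⁻¹ * r ^ j * d * (k0⁻¹ * r ^ j)⁻¹ = r ^ (2 * j + 1) * e := by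
    rw [show k0⁻¹ * r ^ j * d * (k0⁻¹ * r ^ j)⁻¹ = k0⁻¹ * (r ^ j * d * (r ^ j)⁻¹) * k0 by group, c1,
      show r ^ (2 * j) * d = r ^ (2 * j + 1) * (r⁻¹ * d) by group, ← e3, ← mul_assoc _ (k0 * e),
      ← mul_assoc _ k0, k0K _ hj]
    group
  have hQ : F ≤ Qd (r ^ (2 * j + 1) * e) := fun f hf => by
    rw [← e4, Γ.Qc, ← cf _ hK f hf]
    exact conj_mem_cj.2 (Fd hf)
  have hE : r ^ (2 * j + 1) * e ∈ D := e4 ▸ Γ.Dc d hd _
  generalize r ^ (2 * j + 1) = f at *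
  have := (Γ.loc _ hE V hV (mul_mem (FV hj) eV)).inQ e he ((mul_mem_cancel_left (hQ hj)).1 (Γ.self _ hE))
    fun h => be (h ▸ hQ hb0)
  rw [← mul_assoc, Γ.comm hV eV (FV hj), mul_assoc, Γ.sq V hV e eV, mul_one] at this
  exact hD f hj this

end H80.O8
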