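import Mathlib
import Cfsg.Agent.Lib.O8C.Mdl
import Cfsg.Agent.Lib.LocEven.CharP
import Cfsg.Agent.Lib.LocEven.Basic
import Cfsg.Agent.Lib.LargeExtra.Pair
import Cfsg.Agent.Lib.LargeExtra.Out
import Cfsg.Agent.Lib.Misc92.Smith

/-! Involution centralisers `2^{1+8}.(S₃ × S₃ × S₃)`: coordinates (helper80). -/

set_option autoImplicit false

namespace H80.O8

open Subgroup H68 H95 Cfsg

universe u

variable {G : Type u} [Group G]

/-- `O₂(C(d))` -/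
def Qd (d : G) : Subgroup G := pCoreOf 2 (centralizer {d})

theorem Qd_conj (g d : G) : Qd (g * d * g⁻¹) = cj g (Qd d) := by
  rw [Qd, Qd, cj, H70.map_conj_pCoreOf]
  congr 1
  ext x
  rw [mem_map_conj, mem_cent_iff, mem_cent_iff]
  exact ⟨fun h => by rw [mul_assoc _ g, show g * d = g * d * g⁻¹ * g by group, ← mul_assoc, mul_assoc _ x, h]; group,
    fun h => by rw [show x * (g * d * g⁻¹) = g * (g⁻¹ * x * g * d) * g⁻¹ by group, h]; group⟩

/-- conjugacy class -/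
def Cl (z : G) : Set G := {d | ∃ g, d = g * z * g⁻¹}

theorem Cl_conj {z d : G} (h : d ∈ Cl z) (g : G) : g * d * g⁻¹ ∈ Cl z :=
  let ⟨k, e⟩ := h; ⟨g * k, by rw [e]; group⟩

theorem self_mem_Cl (z : G) : z ∈ Cl z := ⟨1, by group⟩

structure Hyp (z : G) (Lf : G → G3 → Prop) : Prop where
  L : L3 (Qd z) z
  card : Nat.card (Qd z) = 2 ^ 9
  comm : ∀ {c γ}, Lf c γ → c * z = z * c
  ex : ∀ {c}, c * z = z * c → ∃ γ, Lf c γ
  surj : ∀ γ, ∃ c, Lf c γ
  mul : ∀ {c d γ δ}, Lf c γ → Lf d δ → Lf (c * d) (γ * δ)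
  uniq : ∀ {c γ δ}, Lf c γ → Lf c δ → γ = δ
  one : ∀ {c}, Lf c 1 ↔ c ∈ Qd z
  fused : ∃ s ∈ Cl z, s ∈ Qd z ∧ s ≠ z

structure Std (z : G) (Lf : G → G3 → Prop) (s : G) : Prop where
  cl : s ∈ Cl z
  mem : s ∈ Qd z
  ne : s ≠ z
  lift : ∀ γ ∈ A0, ∃ y ∈ Qd s, Lf y γ
  sub : ∀ y ∈ Qd s, ∀ γ, Lf y γ → γ ∈ A0
  big : ∃ e ∈ Qd z ⊓ Qd s, ¬(e = 1 ∨ e = z ∨ e = s ∨ e = z * s)

theorem card_rk {A B : Type*} [Group A] [Group B] (φ : A →* B) : Nat.card φ.range * Nat.card φ.ker = Nat.card A := by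
  rw [← Nat.card_congr (QuotientGroup.quotientKerEquivRange φ).toEquiv]
  exact (card_eq_card_quotient_mul_card_subgroup _).symm

theorem cj_inj {g a b : G} : g * a * g⁻¹ = g * b * g⁻¹ ↔ a = b := by simp

theorem fix3 (K : Subgroup S3) (h : ∀ γ ∈ K, γ * γ = 1) : ∃ i, ∀ γ ∈ K, γ i = i := by
  have k : ∀ a : S3, a * a = 1 → a ≠ 1 → ∃ i, ∀ b : S3, b * b = 1 → a * b * (a * b) = 1 → b i = i := by
    decide +kernel
  by_cases e : ∃ a ∈ K, a ≠ 1
  · obtain ⟨a, ha, n⟩ := e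
    exact (k a (h a ha) n).imp fun i t b hb => t b (h b hb) (h _ (mul_mem ha hb))
  · push Not at e
    exact ⟨0, fun γ hγ => by rw [e γ hγ]; rfl⟩

theorem exists_conj_A0 (K : Subgroup G3) (h : ∀ γ ∈ K, γ * γ = 1) : ∃ δ : G3, ∀ γ ∈ K, δ * γ * δ⁻¹ ∈ A0 := by
  obtain ⟨i, hi⟩ := fix3 (K.map (MonoidHom.fst _ _)) (by
    rintro _ ⟨γ, hγ, rfl⟩; exact congrArg Prod.fst (h γ hγ))
  obtain ⟨j, hj⟩ := fix3 (K.map ((MonoidHom.fst _ _).comp (MonoidHom.snd _ _))) (by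
    rintro _ ⟨γ, hγ, rfl⟩; exact congrArg (·.2.1) (h γ hγ))
  obtain ⟨k, hk⟩ := fix3 (K.map ((MonoidHom.snd _ _).comp (MonoidHom.snd _ _))) (by
    rintro _ ⟨γ, hγ, rfl⟩; exact congrArg (·.2.2) (h γ hγ))
  have t : ∀ (i : Fin 3) (a : S3), a i = i → ((c3 i)⁻¹ * a * (c3 i)⁻¹⁻¹) 0 = 0 := by decide +kernel
  exact ⟨((c3 i)⁻¹, (c3 j)⁻¹, (c3 k)⁻¹), fun γ hγ =>
    ⟨t i _ (hi _ ⟨γ, hγ, rfl⟩), t j _ (hj _ ⟨γ, hγ, rfl⟩), t k _ (hk _ ⟨γ, hγ, rfl⟩)⟩⟩

namespace Hyp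

variable {z : G} {Lf : G → G3 → Prop} (H : Hyp z Lf)
include H

theorem inv {c : G} {γ : G3} (h : Lf c γ) : Lf c⁻¹ γ⁻¹ := by
  obtain ⟨δ, l⟩ := H.ex (c := c⁻¹) (Commute.inv_left (H.comm h)).eq
  have := H.mul h l
  rw [mul_inv_cancel] at this
  rwa [← eq_inv_of_mul_eq_one_right (H.uniq this (H.one.2 (one_mem _)))]

theorem conj {c d : G} {γ δ : G3} (h : Lf c γ) (k : Lf d δ) : Lf (c * d * c⁻¹) (γ * δ * γ⁻¹) :=
  H.mul (H.mul h k) (H.inv h)

theorem mulQ {c a : G} {γ : G3} (h : Lf c γ) (k : a ∈ Qd z) : Lf (c * a) γ := by simpa using H.mul h (H.one.2 k)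

theorem Qmul {c a : G} {γ : G3} (k : a ∈ Qd z) (h : Lf c γ) : Lf (a * c) γ := by simpa using H.mul (H.one.2 k) h

theorem div_mem {c d : G} {γ : G3} (h : Lf c γ) (k : Lf d γ) : c⁻¹ * d ∈ Qd z :=
  H.one.1 (by simpa using H.mul (H.inv h) k)

theorem conj_mem {c a : G} {γ : G3} (h : Lf c γ) (k : a ∈ Qd z) : c * a * c⁻¹ ∈ Qd z :=
  H.one.1 (by simpa using H.conj h (H.one.2 k))

theorem conj_z {c : G} {γ : G3} (h : Lf c γ) : c * z * c⁻¹ = z := by rw [H.comm h, mul_inv_cancel_right]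

theorem exists_hom : ∃ θ : centralizer ({z} : Set G) →* G3, ∀ c : centralizer ({z} : Set G), Lf c (θ c) := by
  choose θ h using fun c : centralizer ({z} : Set G) => H.ex (mem_cent_iff.1 c.2)
  exact ⟨.mk' θ fun a b => H.uniq (h _) (H.mul (h a) (h b)), h⟩

theorem L3_Cl {d : G} (h : d ∈ Cl z) : L3 (Qd d) d := by
  obtain ⟨g, rfl⟩ := h
  rw [Qd_conj]; exact H.L.map_conj g

variable [Finite G]

theorem pair {s : G} (h : s ∈ Cl z) (h1 : s ∈ Qd z) (h2 : s ≠ z) : Pair (Qd z) (Qd s) z s := by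
  obtain ⟨g, rfl⟩ := h
  rw [Qd_conj]
  exact H.L.pair (by rw [H.card]; norm_num) h1 h2

theorem card_cent : Nat.card (centralizer ({z} : Set G)) = 216 * 512 := by
  obtain ⟨θ, hθ⟩ := H.exists_hom
  have e : θ.ker = (Qd z).subgroupOf _ := by
    ext c; exact ⟨fun h => H.one.1 (h ▸ hθ c), fun h => H.uniq (hθ c) (H.one.2 h)⟩
  have r : θ.range = ⊤ := top_unique fun γ _ => (H.surj γ).elim fun c l =>
    ⟨⟨c, mem_cent_iff.2 (H.comm l)⟩, H.uniq (hθ _) l⟩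
  rw [← card_rk θ, e, r, Nat.card_congr (subgroupOfEquivOfLe H.L.le_centralizer).toEquiv, H.card,
    card_top, Nat.card_prod, Nat.card_prod, Nat.card_perm, Nat.card_eq_fintype_card, Fintype.card_fin]
  rfl

theorem norm {s : G} (h : s ∈ Cl z) (h1 : s ∈ Qd z) (h2 : s ≠ z) : ∃ c γ, Lf c γ ∧ Std z Lf (c * s * c⁻¹) := by
  have p := H.pair h h1 h2
  obtain ⟨θ, hθ⟩ := H.exists_hom
  let φ := θ.comp (inclusion (inf_le_right (a := Qd s)))
  have mφ : ∀ γ, γ ∈ φ.range ↔ ∃ y ∈ Qd s, Lf y γ := fun γ =>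
    ⟨fun ⟨y, e⟩ => ⟨y, y.2.1, e ▸ hθ ⟨y, y.2.2⟩⟩, fun ⟨y, hy, l⟩ =>
      ⟨⟨y, hy, mem_cent_iff.2 (H.comm l)⟩, H.uniq (hθ _) l⟩⟩
  have c1 := card_rk φ
  have e : φ.ker = (Qd z ⊓ Qd s).subgroupOf _ := by
    ext c
    exact ⟨fun h => ⟨H.one.1 (h ▸ hθ ⟨c, c.2.2⟩), c.2.1⟩, fun h => H.uniq (hθ ⟨c, c.2.2⟩) (H.one.2 h.1)⟩
  have c2 := p.h'.card_centralizer p.zQ H.L.ne_one h2.symm
  have c3 : Nat.card (Qd s) = 2 ^ 9 := by obtain ⟨g, rfl⟩ := h; rw [Qd_conj, card_cj, H.card]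
  have c4 := H92.Smith.card_le_of_elem H.L.isExtraspecial (n := 4) H.card (inf_le_left (b := Qd s))
    (fun a ha b hb => by
      rw [← inv_eq_of_mul_eq_one_right (p.E_elementary (mul_mem ha hb)), mul_inv_rev,
        inv_eq_of_mul_eq_one_right (p.E_elementary ha), inv_eq_of_mul_eq_one_right (p.E_elementary hb)])
    fun a => p.E_elementary
  rw [e, Nat.card_congr (subgroupOfEquivOfLe
    (le_inf inf_le_right (inf_le_left.trans H.L.le_centralizer))).toEquiv] at c1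
  obtain ⟨δ, hδ⟩ := exists_conj_A0 φ.range fun γ hγ => by
    obtain ⟨y, hy, l⟩ := (mφ γ).1 hγ
    refine H.uniq (H.mul l l) (H.one.2 ?_)
    rcases p.h'.sq_mem hy with e | e <;> rw [e]
    exacts [one_mem _, h1]
  obtain ⟨c, l⟩ := H.surj δ
  have le : cj δ φ.range ≤ A0 := cj_le_iff'.2 hδ
  have c5 := card_le_of_le le
  rw [card_cj, card_A0] at c5
  have c6 := Nat.mul_le_mul_left (Nat.card φ.range) c4
  have c7 := Nat.mul_le_mul_right (Nat.card (Qd z ⊓ Qd s : Subgroup G)) c5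
  refine ⟨c, δ, l, Cl_conj h c, H.conj_mem l h1, fun e => h2 (by rwa [← H.conj_z l, cj_inj] at e), fun γ hγ => ?_,
    fun y hy γ k => ?_, ?_⟩
  · rw [← eq_of_le_of_card_ge le (by rw [card_cj, card_A0]; omega)] at hγ
    obtain ⟨y, hy, k⟩ := (mφ _).1 (mem_cj.1 hγ)
    exact ⟨_, Qd_conj c s ▸ conj_mem_cj.2 hy, by simpa [mul_assoc] using H.conj l k⟩
  · rw [Qd_conj, mem_cj] at hy
    simpa [mul_assoc] using hδ _ ((mφ _).2 ⟨_, hy, H.mul (H.mul (H.inv l) k) l⟩)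
  · classical
    obtain ⟨e, he, n⟩ : ∃ e ∈ Qd z ⊓ Qd s, ¬(e = 1 ∨ e = z ∨ e = s ∨ e = z * s) := by
      by_contra n
      have := Set.ncard_le_ncard (s := ((Qd z ⊓ Qd s : Subgroup G) : Set G))
        (t := (({1, z, s, z * s} : Finset G) : Set G)) fun e he => by simpa using not_not.1 fun k => n ⟨e, he, k⟩
      rw [Set.ncard_coe_finset, ← Nat.card_coe_set_eq] at this
      have := this.trans Finset.card_le_four
      change Nat.card (Qd z ⊓ Qd s : Subgroup G) ≤ 4 at this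
      omega
    refine ⟨c * e * c⁻¹, ⟨H.conj_mem l he.1, Qd_conj c s ▸ conj_mem_cj.2 he.2⟩, fun k => n ?_⟩
    rwa [← H.conj_z l, conj_mul, cj_inj, cj_inj, cj_inj, conj_eq_one_iff] at k

end Hyp

/-- coordinates on `Q / ⟨z⟩` -/
structure Co (z : G) (Lf : G → G3 → Prop) {N : Type*} [AddCommGroup N] (q : N → ZMod 2) (B : N →+ N →+ ZMod 2)
    (r : G3 → N → N) (I : G → N → Prop) : Prop extends Hyp z Lf where
  two : ∀ v : N, v + v = 0
  qadd : ∀ v w, q (v + w) = q v + q w + B v w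
  mem : ∀ {a v}, I a v → a ∈ Qd z
  exI : ∀ {a}, a ∈ Qd z → ∃ v, I a v
  srj : ∀ v, ∃ a, I a v
  add : ∀ {a b v w}, I a v → I b w → I (a * b) (v + w)
  unq : ∀ {a v w}, I a v → I a w → v = w
  zero : ∀ {a}, I a 0 ↔ a = 1 ∨ a = z
  sq : ∀ {a v}, I a v → a * a = zp z (q v)
  cnj : ∀ {a v c γ}, Lf c γ → I a v → I (c * a * c⁻¹) (r γ v)

theorem Hyp.exists_co [Finite G] {z : G} {Lf : G → G3 → Prop} (H : Hyp z Lf) :
    ∃ (N : Type u) (_ : AddCommGroup N) (_ : Module (ZMod 2) N) (q : N → ZMod 2) (B : N →+ N →+ ZMod 2)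
      (r : G3 → N → N) (I : G → N → Prop), Nat.card N = 256 ∧ Co z Lf q B r I := by
  obtain ⟨V, _, _, ⟨P⟩⟩ := H.L.top.exists_pres
  choose c hc using H.surj
  let r : G3 → V → V := fun γ => P.autHom H.L.top ((Qd z).normalizerMonoidHom ⟨c γ, H.L.norm _ (H.comm (hc γ))⟩)
  refine ⟨V, inferInstance, inferInstance, P.q,
    LinearMap.toAddMonoidHom'.comp (QuadraticMap.polarBilin P.q).toAddMonoidHom, r,
    fun a v => ∃ h : a ∈ Qd z, P.π ⟨a, h⟩ = v, ?_, H, vec2_add_self, fun v w => ?_, fun h => h.1,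
    fun h => ⟨_, h, rfl⟩, fun v => ?_, ?_, fun h k => h.2.symm.trans k.2, ⟨fun h => ?_, ?_⟩, ?_, ?_⟩
  · have := P.card_eq
    rw [H.card] at this
    omega
  · change _ = _ + QuadraticMap.polar P.q v w
    rw [QuadraticMap.polar]; ring
  · obtain ⟨a, e⟩ := P.surj v
    exact ⟨a, a.2, e⟩
  · rintro a b _ _ ⟨h, rfl⟩ ⟨k, rfl⟩
    exact ⟨mul_mem h k, P.π_mul ⟨a, h⟩ ⟨b, k⟩⟩
  · exact ((P.ker _).1 h.2).imp (congrArg Subtype.val) (congrArg Subtype.val)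
  · rintro (rfl | rfl)
    exacts [⟨one_mem _, P.π_one⟩, ⟨H.L.mem, P.π_z⟩]
  · rintro a _ ⟨h, rfl⟩
    exact (congrArg Subtype.val (P.sq ⟨a, h⟩)).trans (map_zp (Qd z).subtype _)
  · rintro a _ d γ l ⟨h, rfl⟩
    have k := H.div_mem (hc γ) l
    refine ⟨H.conj_mem l h, Eq.trans ?_ (P.autHom_π _ _ _).symm⟩
    have : P.π (⟨_, k⟩ * ⟨a, h⟩ * ⟨_, k⟩⁻¹) = P.π ⟨a, h⟩ := by
      rw [P.π_mul, P.π_mul, P.π_inv, add_right_comm, vec2_add_self, zero_add]
    rw [← P.autHom_π H.L.top, ← this, P.autHom_π]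
    exact congrArg _ (Subtype.ext (by simp [normalizerMonoidHom_apply_apply_coe, mul_assoc]))

namespace Co

variable {z : G} {Lf : G → G3 → Prop} {N : Type*} [AddCommGroup N] {q : N → ZMod 2} {B : N →+ N →+ ZMod 2}
  {r : G3 → N → N} {I : G → N → Prop} (C : Co z Lf q B r I)
include C

theorem I1 : I 1 0 := C.zero.2 (.inl rfl)
theorem Iz : I z 0 := C.zero.2 (.inr rfl)

theorem Iinv {a : G} {v : N} (h : I a v) : I a⁻¹ v := by
  obtain ⟨w, k⟩ := C.exI (inv_mem (C.mem h))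
  have := C.add h k
  rw [mul_inv_cancel] at this
  rwa [← add_left_cancel ((C.unq this C.I1).trans (C.two v).symm)]

theorem mul_z {a : G} {v : N} (h : I a v) : I (a * z) v := by simpa using C.add h C.Iz

theorem eq {a b : G} {v : N} (h : I a v) (k : I b v) : b = a ∨ b = a * z := by
  have := C.add (C.Iinv h) k
  rw [C.two] at this
  exact (C.zero.1 this).imp (fun e => (inv_mul_eq_one.1 e).symm) inv_mul_eq_iff_eq_mul.1

theorem r_one (v : N) : r 1 v = v :=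
  let ⟨a, h⟩ := C.srj v; C.unq (by simpa using C.cnj (C.one.2 (one_mem _)) h) h

theorem r_mul (γ δ : G3) (v : N) : r (γ * δ) v = r γ (r δ v) := by
  obtain ⟨a, h⟩ := C.srj v
  obtain ⟨c, l⟩ := C.surj γ
  obtain ⟨d, k⟩ := C.surj δ
  exact C.unq (C.cnj (C.mul l k) h) (by simpa [mul_assoc] using C.cnj l (C.cnj k h))

theorem r_add (γ : G3) (v w : N) : r γ (v + w) = r γ v + r γ w := by
  obtain ⟨a, h⟩ := C.srj v
  obtain ⟨b, k⟩ := C.srj w
  obtain ⟨c, l⟩ := C.surj γ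
  exact C.unq (C.cnj l (C.add h k)) (conj_mul (b := c) ▸ C.add (C.cnj l h) (C.cnj l k))

theorem r_zero (γ : G3) : r γ 0 = 0 := by simpa using C.r_add γ 0 0

theorem r_inv (γ : G3) (v : N) : r γ⁻¹ (r γ v) = v := by rw [← C.r_mul, inv_mul_cancel, C.r_one]

theorem q_r (γ : G3) (v : N) : q (r γ v) = q v := by
  obtain ⟨a, h⟩ := C.srj v
  obtain ⟨c, l⟩ := C.surj γ
  refine zp_inj C.L.ne_one ?_
  rw [← C.sq (C.cnj l h), conj_mul, C.sq h, zp_comm (C.comm l), mul_inv_cancel_right]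

theorem B_r (γ : G3) (v w : N) : B (r γ v) (r γ w) = B v w := by
  have := C.q_r γ (v + w)
  rwa [C.r_add, C.qadd, C.qadd, C.q_r, C.q_r, add_right_inj] at this

theorem B_self (v : N) : B v v = 0 := by
  have h0 := C.qadd 0 0
  have := C.qadd v v
  rw [add_zero, map_zero, add_zero, left_eq_add] at h0
  rwa [C.two, h0, zmod2_add_self, zero_add, eq_comm] at this

theorem B_comm (v w : N) : B v w = B w v := by
  have := C.qadd v w
  rwa [add_comm v, C.qadd, add_comm (q w), add_right_inj, eq_comm] at this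

theorem cnjQ {a u : G} {v : N} (hu : u ∈ Qd z) (h : I a v) : I (u * a * u⁻¹) v :=
  C.r_one v ▸ C.cnj (C.one.2 hu) h

theorem comm_iff {a b : G} {v w : N} (h : I a v) (k : I b w) : a * b = b * a ↔ B v w = 0 := by
  have e := C.sq (C.add h k)
  rw [C.qadd, add_right_comm, zp_add C.L.sq, zp_add C.L.sq, ← C.sq h, ← C.sq k, mul_assoc, mul_assoc, mul_assoc,
    mul_right_inj, ← mul_assoc, ← mul_assoc, ← mul_assoc, mul_left_inj, mul_assoc,
    ← zp_comm (C.L.central b (C.mem k)), ← mul_assoc] at e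
  rw [e, eq_comm, mul_eq_left, zp_eq_one_iff C.L.ne_one]

theorem fix_iff {a c : G} {v : N} {γ : G3} (l : Lf c γ) (h : I a v) :
    r γ v = v ↔ c * a * c⁻¹ = a ∨ c * a * c⁻¹ = a * z :=
  ⟨fun e => C.eq h (e ▸ C.cnj l h), fun e => C.unq (C.cnj l h) (by
    rcases e with e | e <;> rw [e]
    exacts [h, C.mul_z h])⟩

theorem ne_zero {s : G} {v : N} (S : Std z Lf s) (h : I s v) : v ≠ 0 := by
  rintro rfl
  rcases C.zero.1 h with e | e
  · exact (C.L3_Cl S.cl).ne_one e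
  · exact S.ne e

theorem fixA {s : G} {v : N} (S : Std z Lf s) (h : I s v) {γ : G3} (hγ : γ ∈ A0) : r γ v = v := by
  obtain ⟨y, hy, l⟩ := S.lift γ hγ
  exact (C.fix_iff l h).2 (.inl (by rw [(C.L3_Cl S.cl).central y hy, mul_inv_cancel_right]))

theorem nondeg {v : N} (h : ∀ w, B v w = 0) : v = 0 := by
  obtain ⟨a, k⟩ := C.srj v
  exact C.unq k (C.zero.2 (C.L.nondeg a (C.mem k) fun b hb => (C.exI hb).elim fun w l => (C.comm_iff k l).2 (h w)))

theorem stab {s : G} {v : N} (S : Std z Lf s) (h : I s v) {t : G3} (e : r t v = v) {a : G3} (ha : a ∈ A0) :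
    t * a * t⁻¹ ∈ A0 := by
  obtain ⟨c, l, k⟩ : ∃ c, Lf c t ∧ c * s * c⁻¹ = s := by
    obtain ⟨c, l⟩ := C.surj t
    rcases (C.fix_iff l h).1 e with k | k
    · exact ⟨c, l, k⟩
    · obtain ⟨u, hu, k'⟩ := C.L.exists_conj S.mem (C.L3_Cl S.cl).ne_one S.ne
      refine ⟨u⁻¹ * c, C.Qmul (inv_mem hu) l, ?_⟩
      rw [show u⁻¹ * c * s * (u⁻¹ * c)⁻¹ = u⁻¹ * (c * s * c⁻¹) * u by group, k, ← k']; group
  obtain ⟨y, hy, l'⟩ := S.lift a ha
  exact S.sub _ (by rw [← k, Qd_conj, conj_mem_cj]; exact hy) _ (C.conj l l')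

variable [Finite G]

/-- commutators of `E` with lifts of `A` -/
theorem epsE {s e : G} {v w : N} (S : Std z Lf s) (h : I s v) (he : e ∈ Qd s) (k : I e w) {γ : G3} (hγ : γ ∈ A0) :
    r γ w + w = 0 ∨ r γ w + w = v := by
  obtain ⟨y, hy, l⟩ := S.lift γ hγ
  have := C.add (C.cnj l k) (C.Iinv k)
  rcases (C.L3_Cl S.cl).commutator_eq hy he with e | e <;> rw [e] at this
  exacts [.inl (C.unq this C.I1), .inr (C.unq this h)]

theorem betaE {s : G} {v w : N} (S : Std z Lf s) (h : I s v) (k : B w v = 0) {γ : G3} (hγ : γ ∈ A0) :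
    ∃ e ∈ Qd s, I e (r γ w + w) := by
  obtain ⟨y, hy, l⟩ := S.lift γ hγ
  obtain ⟨c, hc⟩ := C.srj w
  refine ⟨_, ?_, C.add (C.cnj l hc) (C.Iinv hc)⟩
  rw [mul_assoc, mul_assoc, ← mul_assoc c]
  exact mul_mem hy (conj_mem_of_normalizer ((C.L3_Cl S.cl).norm c ((C.comm_iff hc h).2 k)) (inv_mem hy))

theorem gammaE {s e : G} {w : N} (S : Std z Lf s) (he : e ∈ Qd s) (k : I e w) (f : ∀ γ ∈ A0, r γ w = w) :
    e = 1 ∨ e = z ∨ e = s ∨ e = z * s := by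
  have p := C.pair S.cl S.mem S.ne
  have := p.h'.mem_of_centralizes p.zQ C.L.sq he fun y hy yz => by
    obtain ⟨γ, l⟩ := C.ex yz
    rcases (C.fix_iff l k).1 (f γ (S.sub y hy γ l)) with t | t
    · exact mul_inv_eq_iff_eq_mul.1 t
    · rcases p.h'.conj he hy with t' | t'
      · exact mul_inv_eq_iff_eq_mul.1 t'
      · exact absurd (mul_left_cancel (t'.symm.trans t)) S.ne
  rw [← p.zs] at this
  tauto

theorem deltaE {s : G} {v w : N} (S : Std z Lf s) (h : I s v) (k : B w v ≠ 0) {γ : G3} (hγ : γ ∈ A0)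
    (f : r γ w = w) : γ = 1 := by
  have p := C.pair S.cl S.mem S.ne
  obtain ⟨y, hy, l⟩ := S.lift γ hγ
  obtain ⟨u, hu⟩ := C.srj w
  have us := C.L.conj_of_ne S.mem (C.mem hu) fun e => k ((C.comm_iff hu h).1 e)
  obtain ⟨u', hu', e⟩ := p.h'.exists_conj p.zQ C.L.ne_one S.ne.symm
  have y1 : y ∈ Qd (z * s) := by
    rw [p.zs, ← us, Qd_conj, mem_cj]
    rcases (C.fix_iff l hu).1 f with t | t
    · rwa [mul_assoc, mul_inv_eq_iff_eq_mul.1 t, inv_mul_cancel_left]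
    · rw [mul_assoc, mul_inv_eq_iff_eq_mul.1 t, mul_assoc, inv_mul_cancel_left]
      exact mul_mem p.zQ hy
  rw [← e, Qd_conj, mem_cj] at y1
  have := p.conj_mem_E (mem_sup_right hu') ⟨y1, (Qd s).mul_mem (mul_mem (inv_mem hu') hy) hu'⟩
  exact C.uniq l (C.one.2 (by simpa [mul_assoc] using this.1))

theorem rel {s : G} {v : N} (S : Std z Lf s) (h : I s v) {t : G3} (t3 : t * (t * t) = 1)
    (hn : ∀ a ∈ A0, a * t = t * a ∧ a * (t * t) = t * t * a ∨ a * t = t * t * a ∧ a * (t * t) = t * a)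
    (hv : r t v ≠ v) : v + r t v + r (t * t) v = 0 := by
  let π : N → N := fun m => m + r t m + r (t * t) m
  have πa : ∀ a b, π (a + b) = π a + π b := fun a b => by simp only [π, C.r_add]; abel
  have πr : ∀ a ∈ A0, ∀ m, π (r a m) = r a (π m) := fun a ha m => by
    simp only [π, C.r_add, ← C.r_mul]
    rcases hn a ha with ⟨e, e'⟩ | ⟨e, e'⟩ <;> rw [e, e']
    rw [add_right_comm]
  obtain ⟨e, ⟨h1, h2⟩, n⟩ := S.big
  obtain ⟨w, k⟩ := C.exI h1
  obtain ⟨a, ha, e1⟩ : ∃ a ∈ A0, r a w + w = v := by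
    by_contra! c
    exact n (C.gammaE S h2 k fun γ hγ => add_right_cancel
      (((C.epsE S h h2 k hγ).resolve_right (c γ hγ)).trans (C.two w).symm))
  have e2 : r a (π w) + π w = π v := by rw [← πr a ha, ← πa, e1]
  by_cases b : B (π w) v = 0
  · obtain ⟨f, hf, k'⟩ := C.betaE S h b ha
    rw [e2] at k'
    have z0 : ∀ {f}, I f (π v) → I f v → False := fun k1 k2 => hv (by
      have e3 := C.unq k1 k2
      have : r t (π v) = π v := by
        simp only [π, C.r_add, ← C.r_mul, t3, C.r_one]; abel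
      rwa [e3] at this)
    rcases C.gammaE S hf k' fun γ hγ => by rw [← πr γ hγ, C.fixA S h hγ] with rfl | rfl | rfl | rfl
    · exact C.unq k' C.I1
    · exact C.unq k' C.Iz
    · exact (z0 k' h).elim
    · exact (z0 k' (by simpa using C.add C.Iz h)).elim
  · have key : ∀ γ ∈ A0, γ ≠ 1 → r γ w = w + v := fun γ hγ n => by
      rcases C.epsE S h h2 k hγ with t | t
      · exact absurd (C.deltaE S h b hγ (by rw [← πr γ hγ, add_right_cancel (t.trans (C.two w).symm)])) n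
      · rw [← t, add_comm (r γ w), ← add_assoc, C.two, zero_add]
    have := key (a1 * a2) (by decide) (by decide)
    rw [C.r_mul, key a2 (by decide) (by decide), C.r_add, key a1 (by decide) (by decide), C.fixA S h (by decide),
      add_eq_left] at this
    exact absurd this (C.ne_zero S h)

end Co

end H80.O8
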