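import Mathlib
import Cfsg.Agent.Lib.O8C.Fr

/-! Involution centralisers `2^{1+8}.(S₃ × S₃ × S₃)`: the module is the tensor product (helper80). -/

set_option autoImplicit false

namespace H80.O8

open Subgroup H68 H95 Cfsg

universe u

variable {G : Type u} [Group G]

def g3 (x : X3) : G3 := (c3 x.1, c3 x.2.1, c3 x.2.2)

theorem sm_g3 (x : X3) : sm (g3 x) 0 = x := by simp [sm, g3, c3]

theorem lin3 {N : Type*} [AddCommGroup N] [Module (ZMod 2) N] {f : Fin 3 → N} (h : f 0 + f 1 + f 2 = 0) (i : Fin 3) :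
    cc i • f 0 + dd i • f 1 = f i := by
  fin_cases i
  · simp [cc, dd]
  · simp [cc, dd]
  · simpa [cc, dd, add_eq_zero_iff_eq_neg, vec2_neg] using h

theorem Hyp.exists_model [Finite G] {z : G} {Lf : G → G3 → Prop} (H : Hyp z Lf) :
    ∃ s I, Std z Lf s ∧ Co z Lf q0 B0 act I ∧ I s v0 := by
  obtain ⟨N, _, _, q, B, r, I, hN, C⟩ := H.exists_co
  obtain ⟨s0, h1, h2, h3⟩ := H.fused
  obtain ⟨c, -, -, S⟩ := H.norm h1 h2 h3
  generalize c * s0 * c⁻¹ = s at S
  obtain ⟨v, h⟩ := C.exI S.mem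
  let P : X3 → N := fun x => r (g3 x) v
  have eqv : ∀ γ x, r γ (P x) = P (sm γ x) := fun γ x => by
    have t : ∀ (a : S3) i, ((c3 (a i))⁻¹ * (a * c3 i)) 0 = 0 := by decide +kernel
    have := C.fixA S h (γ := (g3 (sm γ x))⁻¹ * (γ * g3 x)) ⟨t _ _, t _ _, t _ _⟩
    simp only [P]
    rw [← C.r_mul, ← mul_inv_cancel_left (g3 (sm γ x)) (γ * g3 x), C.r_mul, this]
  have p0 : P 0 = v := C.fixA S h (by decide)
  have rel : ∀ x y a, a ∈ A0 → g3 x * a * (g3 x)⁻¹ ∉ A0 → g3 x * g3 x = g3 y → g3 x * g3 y = 1 →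
      (∀ a ∈ A0, a * g3 x = g3 x * a ∧ a * g3 y = g3 y * a ∨ a * g3 x = g3 y * a ∧ a * g3 y = g3 x * a) →
      ∀ γ, P (sm γ 0) + P (sm γ x) + P (sm γ y) = 0 := fun x y a ha n e e' k γ => by
    have := congrArg (r γ) (C.rel S h (e ▸ e') (e ▸ k) fun e => n (C.stab S h e ha))
    rwa [C.r_add, C.r_add, C.r_zero, e, ← p0, eqv, p0, eqv, eqv] at this
  have R1 : ∀ j k, P (0, j, k) + P (1, j, k) + P (2, j, k) = 0 := fun j k => by
    simpa [sm, c3] using rel (1, 0, 0) (2, 0, 0) a1 (by decide) (by decide) (by decide) (by decide)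
      (by decide +kernel) (1, c3 j, c3 k)
  have R2 : ∀ i k, P (i, 0, k) + P (i, 1, k) + P (i, 2, k) = 0 := fun i k => by
    simpa [sm, c3] using rel (0, 1, 0) (0, 2, 0) a2 (by decide) (by decide) (by decide) (by decide)
      (by decide +kernel) (c3 i, 1, c3 k)
  have R3 : ∀ i j, P (i, j, 0) + P (i, j, 1) + P (i, j, 2) = 0 := fun i j => by
    simpa [sm, c3] using rel (0, 0, 1) (0, 0, 2) a3 (by decide) (by decide) (by decide) (by decide)
      (by decide +kernel) (c3 i, c3 j, 1)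
  let K : Fin 3 → Fin 3 → W2 → N := fun i j w => w.1 • P (i, j, 0) + w.2 • P (i, j, 1)
  let Φ : M8 →+ N := .mk' (fun x => K 0 0 x.1.1 + K 0 1 x.1.2 + (K 1 0 x.2.1 + K 1 1 x.2.2)) fun x y => by
    simp only [K, Prod.fst_add, Prod.snd_add, add_smul]; abel
  have ΦP : ∀ x, Φ (P0 x) = P x := fun ⟨i, j, k⟩ => by
    have t : ∀ a b (α β : ZMod 2), K a b (α • β • ten k 1) = α • β • P (a, b, k) := fun a b α β => by
      rw [← lin3 (f := fun k => P (a, b, k)) (R3 a b) k]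
      simp [K, ten, smul_smul]
    change K 0 0 (cc i • cc j • ten k 1) + K 0 1 (cc i • dd j • ten k 1) +
      (K 1 0 (dd i • cc j • ten k 1) + K 1 1 (dd i • dd j • ten k 1)) = _
    rw [t, t, t, t, ← smul_add, ← smul_add, lin3 (f := fun j => P (0, j, k)) (R2 0 k),
      lin3 (f := fun j => P (1, j, k)) (R2 1 k), lin3 (f := fun i => P (i, j, k)) (R1 j k)]
  have Φr : ∀ γ w, Φ (act γ w) = r γ (Φ w) := fun γ => DFunLike.congr_fun (ext_P0
    (f := Φ.comp (.mk' (act γ) (act_add γ))) (g := (AddMonoidHom.mk' (r γ) (C.r_add γ)).comp Φ) fun x => by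
      change Φ (act γ (P0 x)) = r γ (Φ (P0 x))
      rw [act_P0, ΦP, ΦP, eqv])
  have Φv : Φ v0 = v := (ΦP 0).trans p0
  have inj : Function.Injective Φ := (injective_iff_map_eq_zero Φ).2 fun w hw => by_contra fun n => by
    obtain ⟨l, -, e⟩ := socle w n
    refine C.ne_zero S h ?_
    rw [← Φv, ← e]
    clear e
    induction l with
    | nil => exact hw
    | cons a l ih => rw [List.foldr_cons, map_add, Φr, ih, C.r_zero, add_zero]
  have : Finite N := Nat.finite_of_card_ne_zero (by omega)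
  have sj : Function.Surjective Φ := ((Nat.bijective_iff_injective_and_card Φ).2 ⟨inj, by
    rw [hN, Nat.card_eq_fintype_card]; decide +kernel⟩).2
  have bA : ∀ a ∈ A0, ∀ x, B v (P (sm a x)) = B v (P x) := fun a ha x => by
    rw [← eqv, ← C.B_r a v (P x), C.fixA S h ha]
  have b0 : ∀ x y w a, a ∈ A0 → sm a y = w → P x + P y + P w = 0 → B v (P x) = 0 := fun x y w a ha e k => by
    have := congrArg (B v) k
    rwa [map_add, map_add, ← e, bA a ha, add_assoc, zmod2_add_self, add_zero, map_zero] at this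
  have bv : ∀ x, B v (P x) = B v (P 1) * B0 v0 (P0 x) := fun ⟨i, j, k⟩ => by
    have t : ∀ x : X3, (x.1 = 0 ∨ x.2.1 = 0 ∨ x.2.2 = 0) ∧ B0 v0 (P0 x) = 0 ∨
        B0 v0 (P0 x) = 1 ∧ ∃ a ∈ A0, sm a 1 = x := by decide +kernel
    rcases t (i, j, k) with ⟨e, e'⟩ | ⟨e, a, ha, e'⟩
    · rw [e', mul_zero]
      rcases e with rfl | rfl | rfl
      exacts [b0 _ _ _ a1 (by decide) rfl (R1 j k), b0 _ _ _ a2 (by decide) rfl (R2 i k),
        b0 _ _ _ a3 (by decide) rfl (R3 i j)]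
    · rw [e, mul_one, ← e', bA a ha]
  have bb : ∀ u w, B (Φ u) (Φ w) = B v (P 1) * B0 u w := fun u w => by
    have t : ∀ x y, B0 v0 (P0 (sm (g3 x)⁻¹ y)) = B0 (P0 x) (P0 y) := by decide +kernel
    refine DFunLike.congr_fun (DFunLike.congr_fun (ext_P0 (f := (B.compl₂ Φ).comp Φ)
      (g := (AddMonoidHom.compHom (.mulLeft (B v (P 1)))).comp B0) fun x => ext_P0 fun y => ?_) u) w
    change B (Φ (P0 x)) (Φ (P0 y)) = B v (P 1) * B0 (P0 x) (P0 y)
    rw [ΦP, ΦP, ← C.B_r (g3 x)⁻¹, C.r_inv, eqv, bv, t]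
  have b1 : B v (P 1) = 1 := (zmod2_cases _).resolve_left fun e => C.ne_zero S h (C.nondeg fun w => by
    obtain ⟨w, rfl⟩ := sj w
    rw [← Φv, bb, e, zero_mul])
  have qq : ∀ w, q (Φ w) = q0 w := fun w => by
    have := DFunLike.congr_fun (ext_P0 (f := .mk' (fun w => q (Φ w) + q0 w) fun a b => by
      rw [map_add, C.qadd, q0_add, bb, b1, one_mul]
      linear_combination zmod2_add_self (B0 a b)) (g := 0) fun x => by
        change q (Φ (P0 x)) + q0 (P0 x) = 0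
        rw [ΦP, C.q_r, (zp_eq_one_iff C.L.ne_one).1 ((C.sq h).symm.trans (C.L3_Cl S.cl).sq), zero_add]
        revert x; decide +kernel) w
    exact add_right_cancel (this.trans (zmod2_add_self _).symm)
  exact ⟨s, fun a w => I a (Φ w), S, ⟨H, vec2_add_self, q0_add, C.mem, fun h => (C.exI h).elim fun w k =>
    (sj w).imp fun _ (e : _ = w) => by rwa [e], fun w => C.srj _, fun h k => map_add Φ _ _ ▸ C.add h k,
    fun h k => inj (C.unq h k), by rw [map_zero]; exact C.zero, fun h => qq _ ▸ C.sq h,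
    fun l h => Φr _ _ ▸ C.cnj l h⟩, show I s (Φ v0) from Φv ▸ h⟩

end H80.O8
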