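import Mathlib
import Cfsg.Agent.Lib.O8C.Crd

/-! Involution centralisers `2^{1+8}.(S₃ × S₃ × S₃)`: the subgroup `2⁶` (helper80). -/

set_option autoImplicit false

namespace H80.O8

open Subgroup H68 H95 Cfsg

universe u

variable {G : Type u} [Group G]

def UU (z : G) (Lf : G → G3 → Prop) : Set G :=
  {u | u ∈ Qd z ∧ ∀ c, Lf c a1 → c * u * c⁻¹ = u ∨ c * u * c⁻¹ = u * z}

/-- the base point -/
def VV (z : G) (Lf : G → G3 → Prop) : Subgroup G := centralizer (UU z Lf)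

/-- the points -/
def PP (z : G) (Lf : G → G3 → Prop) : Set (Subgroup G) := {p | ∃ g, p = cj g (VV z Lf)}

def eff : M8 := P0 (0, 1, 1)
def fff : M8 := P0 1

theorem m_q (w : M8) (h : w.2 = 0) : q0 w = 0 := by simp [q0, h]

theorem m_B (v w : M8) (h : v.2 = 0) (k : w.2 = 0) : B0 v w = 0 := by simp [B0, h, k]

theorem m_act {γ : G3} (h : γ.1 0 = 0) {w : M8} (k : w.2 = 0) : (act γ w).2 = 0 := by
  simp [act, tw, h, k, dd]

theorem m_P0 : ∀ x, (P0 x).2 = 0 ↔ x.1 = 0 := by decide +kernel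

theorem m_perp : ∀ w : M8, (∀ j k, B0 (P0 (0, j, k)) w = 0) → w.2 = 0 := by decide +kernel

theorem m_triv : ∀ γ : G3, (∀ j k, P0 (sm γ (0, j, k)) = P0 (0, j, k)) → γ = 1 ∨ γ = a1 := by decide +kernel

theorem m_a1 : ∀ a ∈ A0, fff + eff + act a fff ∈ E4 → a = a1 := by decide +kernel

theorem m_img : ∀ w : M8, w.2 = 0 → ∃ u, w = u + act a1 u := by decide +kernel

theorem conj_conj (a b c : G) : a * (b * c * b⁻¹) * a⁻¹ = a * b * c * (a * b)⁻¹ := by group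

structure Fm (z : G) (Lf : G → G3 → Prop) (s : G) (I : G → M8 → Prop) : Prop extends Co z Lf q0 B0 act I where
  S : Std z Lf s
  Is : I s v0

structure Fx (z : G) (Lf : G → G3 → Prop) (s : G) (I : G → M8 → Prop) (x c y : G) : Prop extends Fm z Lf s I where
  xz : x * z * x⁻¹ = s
  xs : x * s * x⁻¹ = z
  xX : x ∈ Qd z ⊔ Qd s
  Ic : I c eff
  xc : x * c * x⁻¹ = y
  xy : x * y * x⁻¹ = c
  Ly : Lf y a1

theorem Co.exists_cnj {z : G} {Lf : G → G3 → Prop} {N : Type*} [AddCommGroup N] {q : N → ZMod 2}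
    {B : N →+ N →+ ZMod 2} {r : G3 → N → N} {I : G → N → Prop} (C : Co z Lf q B r I) {a b : G} {v : N} {γ : G3}
    (h : I a v) (n : v ≠ 0) (k : I b (r γ v)) : ∃ c, Lf c γ ∧ c * a * c⁻¹ = b := by
  obtain ⟨c, l⟩ := C.surj γ
  rcases C.eq (C.cnj l h) k with e | e
  · exact ⟨c, l, e.symm⟩
  · obtain ⟨u, hu, k'⟩ := C.L.exists_conj (C.mem h) (fun e => n (C.unq h (e ▸ C.I1))) fun e => n (C.unq h (e ▸ C.Iz))
    exact ⟨c * u, C.mulQ l hu, by rw [e, ← C.conj_z l, conj_mul, ← k']; group⟩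

namespace Fm

variable {z : G} {Lf : G → G3 → Prop} {s : G} {I : G → M8 → Prop} (F : Fm z Lf s I)
include F

theorem mem_UU {u : G} {w : M8} (h : I u w) : u ∈ UU z Lf ↔ w.2 = 0 := by
  rw [← fix_a1]
  exact ⟨fun k => (F.surj a1).elim fun c l => (F.fix_iff l h).2 (k.2 c l),
    fun k => ⟨F.mem h, fun c l => (F.fix_iff l h).1 k⟩⟩

theorem mem_VV {v : G} : v ∈ VV z Lf ↔ ∀ u w, I u w → w.2 = 0 → u * v = v * u :=
  ⟨fun h u _ k e => h u ((F.mem_UU k).2 e), fun h u k => (F.exI k.1).elim fun w l => h u w l ((F.mem_UU l).1 k)⟩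

theorem VQ {v : G} {w : M8} (h : I v w) : v ∈ VV z Lf ↔ w.2 = 0 := by
  rw [F.mem_VV]
  refine ⟨fun k => m_perp w fun j k' => ?_, fun k u t l e => (F.comm_iff l h).2 (m_B _ _ e k)⟩
  obtain ⟨u, l⟩ := F.srj (P0 (0, j, k'))
  exact (F.comm_iff l h).1 (k u _ l ((m_P0 _).2 rfl))

theorem zV : z ∈ VV z Lf := (F.VQ F.Iz).2 rfl

theorem sV : s ∈ VV z Lf := (F.VQ F.Is).2 rfl

theorem VL {v : G} (h : v ∈ VV z Lf) : v ∈ Qd z ∨ Lf v a1 := by
  rw [F.mem_VV] at h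
  obtain ⟨γ, l⟩ := F.ex (h z 0 F.Iz rfl).symm
  refine (m_triv γ fun j k => ?_).elim (fun e => .inl (F.one.1 (e ▸ l))) fun e => .inr (e ▸ l)
  obtain ⟨u, k'⟩ := F.srj (P0 (0, j, k))
  rw [← act_P0]
  exact (F.fix_iff l k').2 (.inl (by rw [← h u _ k' ((m_P0 _).2 rfl), mul_inv_cancel_right]))

theorem Vz {v : G} (h : v ∈ VV z Lf) : v * z = z * v := (F.mem_VV.1 h z 0 F.Iz rfl).symm

theorem sq1 {a : G} {w : M8} (h : I a w) (e : q0 w = 0) : a * a = 1 := by rw [F.sq h, e, zp_zero]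

variable [Finite G]

theorem cj_V {c : G} {γ : G3} (l : Lf c γ) : cj c (VV z Lf) = VV z Lf ↔ γ.1 0 = 0 := by
  refine ⟨fun e => ?_, fun e => cj_eq_of_mem_normalizer (mem_normalizer_of_finite fun v hv => ?_)⟩
  · have := (F.VQ (F.cnj l F.Is)).1 (e ▸ conj_mem_cj.2 F.sV)
    rwa [v0, act_P0, m_P0] at this
  · refine F.mem_VV.2 fun u w k e' => ?_
    have := F.mem_VV.1 hv _ _ (F.cnj (F.inv l) k) (m_act (Equiv.Perm.inv_eq_iff_eq.2 e.symm) e')
    rw [← cj_inj (g := c), ← conj_mul, ← conj_mul] at this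
    simpa [mul_assoc] using this

theorem cj_eq {c d : G} {γ δ : G3} (l : Lf c γ) (k : Lf d δ) :
    cj c (VV z Lf) = cj d (VV z Lf) ↔ γ.1 0 = δ.1 0 := by
  rw [← (cj_injective d⁻¹).eq_iff, cj_inv_cj, ← cj_mul, F.cj_V (F.mul (F.inv k) l)]
  exact Equiv.Perm.inv_eq_iff_eq

theorem pair' : Pair (Qd z) (Qd s) z s := F.pair F.S.cl F.S.mem F.S.ne

theorem L1 {a : G} {v : M8} (h : I a v) : a ∈ Cl z ↔ a = z ∨ Pure v := by
  refine ⟨fun k => or_iff_not_imp_left.2 fun n => ?_, ?_⟩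
  · obtain ⟨c, γ, l, S⟩ := F.norm k (F.mem h) n
    have k := F.cnj l h
    refine ⟨sm γ⁻¹ 0, ?_⟩
    rw [← act_P0, ← F.r_inv γ v, (fix_A0 _ (F.fixA S k (by decide)) (F.fixA S k (by decide))
      (F.fixA S k (by decide))).resolve_left (F.ne_zero S k), v0]
  · rintro (rfl | ⟨x, rfl⟩)
    · exact self_mem_Cl _
    · rw [← sm_g3 x, ← act_P0] at h
      obtain ⟨c, -, rfl⟩ := F.exists_cnj F.Is (by decide) h
      exact Cl_conj F.S.cl c

theorem L2 {e : G} {w : M8} (h : I e w) : e ∈ Qd s ↔ w ∈ E4 := by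
  refine ⟨fun k => soc_E4 w fun a ha => F.epsE F.S F.Is k h (by revert a; decide +kernel), fun k => ?_⟩
  let A : AddSubmonoid M8 :=
    { carrier := {w | ∃ e ∈ Qd s, I e w}
      add_mem' := fun ⟨_, h, k⟩ ⟨_, h', k'⟩ => ⟨_, mul_mem h h', F.add k k'⟩
      zero_mem' := ⟨1, one_mem _, F.I1⟩ }
  obtain ⟨e', h', k'⟩ : w ∈ A := by
    rw [E4_gen w k]
    refine add_mem (add_mem (add_mem (nsmul_mem ?_ _) (nsmul_mem ?_ _)) (nsmul_mem ?_ _)) (nsmul_mem ?_ _)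
    · exact ⟨s, F.pair'.h'.mem, F.Is⟩
    all_goals exact F.betaE F.S F.Is (by decide) (by decide)
  rcases F.eq k' h with rfl | rfl
  exacts [h', mul_mem h' F.pair'.zQ]

theorem exists_fx : ∃ x c y, Fx z Lf s I x c y := by
  have p := F.pair'
  obtain ⟨u, hu⟩ := F.srj fff
  obtain ⟨c, hc⟩ := F.srj eff
  obtain ⟨u', hu', e⟩ := p.h'.exists_conj p.zQ F.L.ne_one F.S.ne.symm
  have uu := F.sq1 hu (by decide)
  have ui := inv_eq_of_mul_eq_one_right uu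
  have uz := F.conj_z (F.one.2 (F.mem hu))
  have us := F.L.conj_of_ne F.S.mem (F.mem hu) fun e => absurd ((F.comm_iff hu F.Is).1 e) (by decide)
  have u's : u' * s * u'⁻¹ = s := by rw [p.h'.central u' hu', mul_inv_cancel_right]
  have cs : c * s = s * c := (F.comm_iff hc F.Is).2 (by decide)
  have cz := F.L.central c (F.mem hc)
  have xz : u * u' * u * z * (u * u' * u)⁻¹ = s := by
    rw [← conj_conj, ← conj_conj, uz, e, ← conj_mul, uz, us, ← p.zs, ← mul_assoc, F.L.sq, one_mul]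
  have xs : u * u' * u * s * (u * u' * u)⁻¹ = z := by
    rw [← conj_conj, ← conj_conj, us, ← conj_mul (b := u'), u's, e, p.zs, ← mul_assoc s, p.h'.sq, one_mul, uz]
  have xx : u * u' * u * (u * u' * u) * c = c * (u * u' * u * (u * u' * u)) := by
    rw [show u * u' * u * (u * u' * u) = u * (u' * (u * u) * u') * u⁻¹ by rw [ui]; group, uu, mul_one]
    rcases p.h'.sq_mem hu' with t | t <;> rw [t]
    · simp
    · rw [us, mul_assoc, ← cz, ← mul_assoc, ← cs, mul_assoc]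
  have yQ : u * u' * u * c * (u * u' * u)⁻¹ ∈ Qd s := by rw [← xz, Qd_conj, conj_mem_cj]; exact F.mem hc
  have yz : u * u' * u * c * (u * u' * u)⁻¹ * z = z * (u * u' * u * c * (u * u' * u)⁻¹) := by
    rw [← xs, conj_mul, conj_mul, cs]
  obtain ⟨a, l⟩ := F.ex yz
  refine ⟨_, c, _, F, xz, xs, mul_mem (mul_mem (mem_sup_left (F.mem hu)) (mem_sup_right hu'))
    (mem_sup_left (F.mem hu)), hc, rfl, by rw [conj_conj, xx, mul_inv_cancel_right], ?_⟩
  have k := F.cnjQ (F.mem hu) hc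
  have c's : u * c * u⁻¹ * s = s * (u * c * u⁻¹) := (F.comm_iff k F.Is).2 (by decide)
  generalize hy : u * u' * u * c * (u * u' * u)⁻¹ = y at yQ l
  generalize hc' : u * c * u⁻¹ = c' at k c's
  have hb : c'⁻¹ * u' * c' * u'⁻¹ ∈ Qd s :=
    mul_mem (conj_mem_of_normalizer' (p.h'.norm _ c's) hu') (inv_mem hu')
  have e1 : c'⁻¹ * u' * c' * u'⁻¹ = c'⁻¹ * u⁻¹ * y * u := by rw [← hy, ← hc']; group
  have lb := F.mulQ (F.Qmul (mul_mem (inv_mem (F.mem k)) (inv_mem (F.mem hu))) l) (F.mem hu)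
  rw [← e1] at lb
  have := F.add (F.add hu k) (F.cnj lb (F.Iinv hu))
  rw [show u * c' * (c'⁻¹ * u' * c' * u'⁻¹ * u⁻¹ * (c'⁻¹ * u' * c' * u'⁻¹)⁻¹) = y * (c'⁻¹ * u' * c' * u'⁻¹)⁻¹ by
    rw [← hy, ← hc']; group] at this
  exact m_a1 a (F.S.sub _ yQ a l) ((F.L2 this).1 (mul_mem yQ (inv_mem hb))) ▸ l

end Fm

end H80.O8
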