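import Mathlib
import Cfsg.Agent.Lib.O8C.Pt
import Cfsg.Agent.Lib.O8C.Geo

/-! Involution centralisers `2^{1+8}.(S₃ × S₃ × S₃)`: the local axioms (helper80). -/

set_option autoImplicit false

namespace H80.O8

open Subgroup H68 H95 Cfsg

universe u

variable {G : Type u} [Group G]

theorem Cl_conj' {z d g : G} : g * d * g⁻¹ ∈ Cl z ↔ d ∈ Cl z :=
  ⟨fun h => by simpa [mul_assoc] using Cl_conj h g⁻¹, fun h => Cl_conj h g⟩

theorem PP_cj {z : G} {Lf : G → G3 → Prop} {p : Subgroup G} (h : p ∈ PP z Lf) (g : G) : cj g p ∈ PP z Lf :=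
  let ⟨k, e⟩ := h; ⟨g * k, by rw [e, cj_mul]⟩

theorem VV_mem {z : G} {Lf : G → G3 → Prop} : VV z Lf ∈ PP z Lf := ⟨1, (cj_one _).symm⟩

theorem pl_cj {z : G} {Lf : G → G3 → Prop} {E : Subgroup G} {x : G} (g : G)
    (h : x ∈ Cl z ∧ (∀ r ∈ PP z Lf, x ∈ r → Pf E x r) ∧ ∀ y ∈ E, ∃ r ∈ PP z Lf, x ∈ r ∧ y ∈ r) :
    g * x * g⁻¹ ∈ Cl z ∧ (∀ r ∈ PP z Lf, g * x * g⁻¹ ∈ r → Pf (cj g E) (g * x * g⁻¹) r) ∧
      ∀ y ∈ cj g E, ∃ r ∈ PP z Lf, g * x * g⁻¹ ∈ r ∧ y ∈ r := by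
  refine ⟨Cl_conj h.1 g, fun r hr k => ?_, fun y hy => ?_⟩
  · rw [← cj_cj_inv g r] at k ⊢
    obtain ⟨⟨y, a, b, c, d⟩, t⟩ := h.2.1 _ (PP_cj hr g⁻¹) (conj_mem_cj.1 k)
    refine ⟨⟨_, conj_mem_cj.2 a, conj_mem_cj.2 b, by simpa using c, by rwa [Ne, cj_inj]⟩, fun a ha b hb => ?_⟩
    simpa only [mem_cj (g := g), mul_assoc, mul_inv_cancel_left] using t _ (mem_cj.1 ha) _ (mem_cj.1 hb)
  · obtain ⟨r, hr, a, b⟩ := h.2.2 _ (mem_cj.1 hy)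
    exact ⟨_, PP_cj hr g, conj_mem_cj.2 a, mem_cj.2 b⟩

theorem Co.coset {z : G} {Lf : G → G3 → Prop} {N : Type*} [AddCommGroup N] {q : N → ZMod 2}
    {B : N →+ N →+ ZMod 2} {r : G3 → N → N} {I : G → N → Prop} (C : Co z Lf q B r I) {y d : G} {γ : G3}
    (h : Lf y γ) (k : Lf d γ) (yy : y * y = 1) (dd : d * d = 1) (f : ∀ v, r γ v = v → ∃ u, v = u + r γ u) :
    ∃ u ∈ Qd z, d = u * y * u⁻¹ ∨ d = u * (y * z) * u⁻¹ := by
  obtain ⟨v, hv⟩ := C.exI (C.one.1 (by simpa using C.mul k (C.inv h)) : d * y⁻¹ ∈ Qd z)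
  obtain ⟨w, rfl⟩ := f v (C.unq (C.cnj h hv) (by
    convert C.Iinv hv using 1
    rw [mul_inv_rev, inv_inv, inv_eq_of_mul_eq_one_right dd, mul_assoc, mul_assoc, ← mul_inv_rev, yy, inv_one, mul_one]))
  obtain ⟨u, hu⟩ := C.srj w
  refine ⟨u, C.mem hu, (C.eq (C.add hu (C.cnj h (C.Iinv hu))) hv).imp (fun e => ?_) fun e => ?_⟩
  · rw [mul_inv_eq_iff_eq_mul.1 e]; group
  · rw [mul_inv_eq_iff_eq_mul.1 e, mul_assoc _ z, ← C.comm h, mul_assoc u (y * z), mul_assoc y z,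
      ← C.L.central _ (inv_mem (C.mem hu))]
    group

theorem m_P0_ne : ∀ t, P0 t ≠ 0 := by decide +kernel

theorem m_E4 : ∀ w : M8, w.2 = 0 → w ∈ E4 ∨ w + eff ∈ E4 := by decide +kernel

theorem m_meet : ∀ (γ : G3) (w : M8), γ.1 0 ≠ 0 → w.2 = 0 → (act γ⁻¹ w).2 = 0 → w = 0 := by decide +kernel

theorem m_sw : ∀ γ : G3, (γ⁻¹ * a1 * γ).1 0 = 0 → γ.1 0 = 0 := by decide +kernel

theorem m_five : ∀ w : M8, w.2 = 0 → w ≠ 0 → ¬Pure w →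
    (∃ t, (P0 t).2 = 0 ∧ P0 t + w ≠ 0 ∧ ¬Pure (P0 t + w)) ∧ ∃ t, (P0 t).2 = 0 ∧ Pure (P0 t + w) := by decide +kernel

theorem m_L2 : ∀ w ∈ L2, w ∈ E4 ∧ w + v0 ∈ L2 ∧ (w = 0 ∨ ∃ i, w = act (c3 i, 1, 1) v0) ∧
    (∃ i, (act (c3 i, 1, 1)⁻¹ w).2 = 0) ∧ ∀ i, act (c3 i, 1, 1) w ∈ L2 := by decide +kernel

theorem m_L2' : ∀ i, (∃ w ∈ L2, w ≠ 0 ∧ (act (c3 i, 1, 1)⁻¹ w).2 = 0) ∧ ∀ v ∈ L2, ∀ w ∈ L2,
    (act (c3 i, 1, 1)⁻¹ v).2 = 0 ∨ (act (c3 i, 1, 1)⁻¹ w).2 = 0 ∨ (act (c3 i, 1, 1)⁻¹ (v + w)).2 = 0 := by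
  decide +kernel

namespace Fx

variable [Finite G] {z : G} {Lf : G → G3 → Prop} {s : G} {I : G → M8 → Prop} {x c y : G} (F : Fx z Lf s I x c y)
include F

theorem cD : c ∈ Cl z := (F.L1 F.Ic).2 (.inr ⟨_, rfl⟩)

theorem yD : y ∈ Cl z := F.xc ▸ Cl_conj F.cD x

theorem yy : y * y = 1 := (F.L3_Cl F.yD).sq

theorem cV : c ∈ VV z Lf := (F.VQ F.Ic).2 rfl

theorem yQ : y ∉ Qd z := fun h => absurd (F.uniq F.Ly (F.one.2 h)) (by decide)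

theorem cnjX {g e : G} {w : M8} (hg : g ∈ Qd z ⊔ Qd s) (h : I e w) (k : w ∈ E4) :
    I (g * e * g⁻¹) w ∨ I (g * e * g⁻¹) (w + v0) := by
  have p := F.pair'
  rw [← inv_mul_cancel_right (g * e * g⁻¹) e, add_comm]
  rcases p.mem_V.1 (p.commutator_X_E hg ⟨F.mem h, (F.L2 h).2 k⟩) with t | t | t | t <;> rw [t]
  · exact .inl (by rwa [one_mul])
  · exact .inl (by simpa using F.add F.Iz h)
  · exact .inr (F.add F.Is h)
  · exact .inr (by simpa using F.add (F.add F.Iz F.Is) h)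

theorem yc : c * y = y * c := by
  rcases (F.fix_iff F.Ly F.Ic).1 (by decide) with t | t
  · exact (mul_inv_eq_iff_eq_mul.1 t).symm
  have t' := congrArg (fun a => x * a * x⁻¹) t
  simp only [← conj_mul (b := x), ← conj_inv, F.xc, F.xy, F.xz] at t'
  rw [mul_inv_eq_iff_eq_mul] at t t'
  rw [mul_assoc, ← F.comm F.Ly, ← mul_assoc, t', mul_assoc, mul_assoc, mul_right_inj, F.L.central c (F.mem F.Ic),
    ← mul_assoc, right_eq_mul, ← eq_inv_iff_mul_eq_one, F.L.inv_eq] at t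
  exact absurd t F.S.ne

theorem yV : y ∈ VV z Lf := by
  have h : ∀ u w, I u w → w.2 = 0 → w ∈ E4 → u * y = y * u := fun u w h e k => by
    have : x⁻¹ * u * x⁻¹⁻¹ * c = c * (x⁻¹ * u * x⁻¹⁻¹) := by
      rcases F.cnjX (inv_mem F.xX) h k with t | t <;> refine (F.comm_iff t F.Ic).2 (m_B _ _ ?_ rfl)
      exacts [e, by rw [Prod.snd_add, e]; rfl]
    rw [← F.xc, ← cj_inj (g := x⁻¹)]
    simpa [mul_assoc] using this
  refine F.mem_VV.2 fun u w k e => (m_E4 w e).elim (h u w k e) fun t => ?_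
  have := h _ _ (F.add k F.Ic) (by rw [Prod.snd_add, e]; rfl) t
  rwa [mul_assoc, F.yc, ← mul_assoc, ← mul_assoc, mul_left_inj] at this

theorem Vy {v : G} (h : v ∈ VV z Lf) (n : v ∉ Qd z) : ∃ w, I (v * y) w ∧ w.2 = 0 := by
  obtain ⟨w, k⟩ := F.exI (F.one.1 (by
    have := F.mul ((F.VL h).resolve_left n) F.Ly
    rwa [show a1 * a1 = 1 by decide] at this))
  exact ⟨w, k, (F.VQ k).1 (mul_mem h F.yV)⟩

theorem Vsq {v : G} (h : v ∈ VV z Lf) : v * v = 1 := by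
  by_cases n : v ∈ Qd z
  · obtain ⟨w, k⟩ := F.exI n
    exact F.sq1 k (m_q w ((F.VQ k).1 h))
  obtain ⟨w, k, e⟩ := F.Vy h n
  have := F.sq1 k (m_q w e)
  have t := F.mem_VV.1 F.yV _ w k e
  rw [mul_assoc, F.yy, mul_one] at t
  rwa [mul_assoc, ← t] at this

theorem xV : cj x (VV z Lf) = VV z Lf := by
  have h : ∀ u w, I u w → w.2 = 0 → w ∈ E4 → x * u * x⁻¹ ∈ VV z Lf := fun u w h e k => by
    rcases F.cnjX F.xX h k with t | t <;> refine (F.VQ t).2 ?_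
    exacts [e, by rw [Prod.snd_add, e]; rfl]
  have h' : ∀ u w, I u w → w.2 = 0 → x * u * x⁻¹ ∈ VV z Lf := fun u w k e => (m_E4 w e).elim (h u w k e) fun t => by
    have := h _ _ (F.add k F.Ic) (by rw [Prod.snd_add, e]; rfl) t
    rwa [← conj_mul, F.xc, mul_mem_cancel_right F.yV] at this
  refine cj_eq_of_mem_normalizer (mem_normalizer_of_finite fun v hv => ?_)
  by_cases n : v ∈ Qd z
  · obtain ⟨w, k⟩ := F.exI n
    exact h' v w k ((F.VQ k).1 hv)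
  obtain ⟨w, k, e⟩ := F.Vy hv n
  have := h' _ w k e
  rwa [← conj_mul, F.xy, mul_mem_cancel_right F.cV] at this

theorem csD : c * s ∉ Cl z := fun h => by
  have k := F.add F.Ic F.Is
  rcases (F.L1 k).1 h with e | e
  · exact absurd (F.unq k (e ▸ F.Iz)) (by decide)
  · exact absurd e (by decide +kernel)

theorem yzD : y * z ∉ Cl z := by
  rw [← F.xc, ← F.xs, conj_mul, F.xs, Cl_conj']
  exact F.csD

theorem Vout {v : G} (h : v ∈ VV z Lf) (n : v ∉ Qd z) : ∃ u ∈ Qd z, v = u * y * u⁻¹ ∨ v = u * (y * z) * u⁻¹ :=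
  F.coset F.Ly ((F.VL h).resolve_left n) F.yy (F.Vsq h) fun v e => m_img v ((fix_a1 v).1 e)

theorem fixQ {u : G} (h : u ∈ Qd z) : cj u (VV z Lf) = VV z Lf := (F.cj_V (F.one.2 h)).2 rfl

theorem flag {d : G} (h : d ∈ Cl z) (k : d ∈ VV z Lf) : ∃ n, cj n (VV z Lf) = VV z Lf ∧ d = n * z * n⁻¹ := by
  have t : ∀ d ∈ Cl z, d ∈ VV z Lf → d ∈ Qd z → ∃ n, cj n (VV z Lf) = VV z Lf ∧ d = n * z * n⁻¹ := fun d h k n => by
    obtain ⟨w, l⟩ := F.exI n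
    rcases (F.L1 l).1 h with rfl | ⟨t, rfl⟩
    · exact ⟨1, cj_one _, by group⟩
    have e := (m_P0 t).1 ((F.VQ l).1 k)
    rw [← sm_g3 t, ← act_P0] at l
    obtain ⟨a, l', rfl⟩ := F.exists_cnj F.Is (by decide) l
    exact ⟨a * x, by rw [cj_mul, F.xV, F.cj_V l', g3, e]; rfl, by rw [← F.xz, conj_conj]⟩
  by_cases n : d ∈ Qd z
  · exact t d h k n
  obtain ⟨u, hu, rfl | rfl⟩ := F.Vout k n
  · obtain ⟨n, e, e'⟩ := t c F.cD F.cV (F.mem F.Ic)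
    exact ⟨u * x * n, by rw [cj_mul, cj_mul, e, F.xV, F.fixQ hu], by rw [← F.xc, e', conj_conj, conj_conj]⟩
  · exact absurd (Cl_conj'.1 h) F.yzD

theorem flag' {d : G} {p : Subgroup G} (h : d ∈ Cl z) (hp : p ∈ PP z Lf) (k : d ∈ p) :
    ∃ g, p = cj g (VV z Lf) ∧ d = g * z * g⁻¹ := by
  obtain ⟨g, rfl⟩ := hp
  obtain ⟨n, e, e'⟩ := F.flag (by simpa using Cl_conj h g⁻¹) (mem_cj.1 k)
  exact ⟨g * n, by rw [cj_mul, e], by rw [← conj_conj, ← e']; group⟩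

theorem pt {p : Subgroup G} (hp : p ∈ PP z Lf) (k : z ∈ p) : ∃ i a, Lf a (c3 i, 1, 1) ∧ p = cj a (VV z Lf) := by
  obtain ⟨g, rfl, e⟩ := F.flag' (self_mem_Cl z) hp k
  obtain ⟨γ, l⟩ := F.ex (eq_mul_inv_iff_mul_eq.1 e).symm
  obtain ⟨a, l'⟩ := F.surj (c3 (γ.1 0), 1, 1)
  exact ⟨_, a, l', (F.cj_eq l l').2 (by simp [c3])⟩

theorem mem_pt {a v : G} {γ : G3} {w : M8} (l : Lf a γ) (h : I v w) : v ∈ cj a (VV z Lf) ↔ (act γ⁻¹ w).2 = 0 := by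
  rw [mem_cj, ← F.VQ (F.cnj (F.inv l) h), inv_inv]

theorem plane : ∃ E, z ∈ E ∧ s ∈ E ∧ Pl (Cl z) (PP z Lf) E := by
  let E : Subgroup G :=
    { carrier := {a | ∃ w ∈ L2, I a w}
      mul_mem' := fun ⟨_, h, k⟩ ⟨_, h', k'⟩ => ⟨_, add_mem h h', F.add k k'⟩
      one_mem' := ⟨0, zero_mem _, F.I1⟩
      inv_mem' := fun ⟨_, h, k⟩ => ⟨_, h, F.Iinv k⟩ }
  have h0 : z ∈ Cl z ∧ (∀ r ∈ PP z Lf, z ∈ r → Pf E z r) ∧ ∀ y ∈ E, ∃ r ∈ PP z Lf, z ∈ r ∧ y ∈ r := by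
    refine ⟨self_mem_Cl z, fun r hr k => ?_, fun v ⟨w, h, k⟩ => ?_⟩
    · obtain ⟨i, a, l, rfl⟩ := F.pt hr k
      obtain ⟨⟨w, h, n, e⟩, t⟩ := m_L2' i
      obtain ⟨v, k⟩ := F.srj w
      refine ⟨⟨v, ⟨w, h, k⟩, (F.mem_pt l k).2 e, fun e => n (F.unq k (e ▸ F.I1)), fun e => n (F.unq k (e ▸ F.Iz))⟩, ?_⟩
      rintro u ⟨v, h, k⟩ u' ⟨v', h', k'⟩
      rw [F.mem_pt l k, F.mem_pt l k', F.mem_pt l (F.add k k')]
      exact t v h v' h'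
    · obtain ⟨i, e⟩ := (m_L2 w h).2.2.2.1
      obtain ⟨a, l⟩ := F.surj (c3 i, 1, 1)
      exact ⟨_, PP_cj VV_mem a, mem_cj_of_comm (F.comm l) F.zV, (F.mem_pt l k).2 e⟩
  have hx : cj x E = E := cj_eq_of_mem_normalizer (mem_normalizer_of_finite fun v ⟨w, h, k⟩ =>
    (F.cnjX F.xX k (m_L2 w h).1).elim (fun t => ⟨w, h, t⟩) fun t => ⟨_, (m_L2 w h).2.1, t⟩)
  refine ⟨E, ⟨0, zero_mem _, F.Iz⟩, ⟨v0, by decide, F.Is⟩, fun v ⟨w, h, k⟩ n => ?_⟩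
  rcases (m_L2 w h).2.2.1 with rfl | ⟨i, rfl⟩
  · rwa [(F.zero.1 k).resolve_left n]
  obtain ⟨a, l, rfl⟩ := F.exists_cnj F.Is (by decide) k
  have ha : cj a E = E := cj_eq_of_mem_normalizer (mem_normalizer_of_finite fun v ⟨w, h, k⟩ =>
    ⟨_, (m_L2 w h).2.2.2.2 i, F.cnj l k⟩)
  have := pl_cj a (pl_cj x h0)
  rwa [hx, ha, F.xz] at this

theorem inQ {f : G} (h : f ∈ Cl z) (k : f ∈ Qd z) (n : f ≠ z) : f * z ∈ Cl z := by
  obtain ⟨u, -, e⟩ := F.L.exists_conj k (F.L3_Cl h).ne_one n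
  exact e ▸ Cl_conj h u

theorem outQ {f : G} (h : f ∈ VV z Lf) (k : f ∉ Qd z) : f ∈ Cl z ↔ f * z ∉ Cl z := by
  obtain ⟨u, hu, rfl | rfl⟩ := F.Vout h k <;>
    rw [← F.conj_z (F.one.2 hu), conj_mul, F.conj_z (F.one.2 hu), Cl_conj', Cl_conj']
  · exact iff_of_true F.yD F.yzD
  · rw [mul_assoc, F.L.sq, mul_one]
    exact iff_of_false F.yzD (not_not.2 F.yD)

theorem loc : Loc (Cl z) Qd (PP z Lf) z (VV z Lf) := by
  have l1 : Lf 1 1 := F.one.2 (one_mem _)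
  have ne : ∀ {a γ}, Lf a γ → VV z Lf ≠ cj a (VV z Lf) → γ.1 0 ≠ 0 := fun l n e => n ((F.cj_V l).2 e).symm
  have key : ∀ b ∈ VV z Lf, b ∈ Qd z → b ∉ Cl z → b ≠ 1 → ∃ w, I b w ∧ w.2 = 0 ∧ w ≠ 0 ∧ ¬Pure w := fun b h k n n1 =>
    (F.exI k).imp fun w l => ⟨l, (F.VQ l).1 h, fun e => n ((F.L1 l).2 (.inl ((F.zero.1 (e ▸ l)).resolve_left n1))),
      fun e => n ((F.L1 l).2 (.inr e))⟩
  refine ⟨?_, fun q hq k n v h h' => ?_, fun _ => F.fixQ, fun q hq k n v h e => ?_, fun a ha b hb => ?_,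
    fun _ => F.inQ, fun _ => F.outQ, ⟨s, F.S.cl, F.sV, F.S.mem, F.S.ne⟩, ⟨y, F.yD, F.yV, F.yQ⟩,
    fun b h k n n1 => ?_, fun b h k n n1 => ?_, fun e h _ k n => ?_⟩
  · obtain ⟨a, l⟩ := F.surj (c3 1, 1, 1)
    obtain ⟨b, l'⟩ := F.surj (c3 2, 1, 1)
    refine ⟨_, PP_cj VV_mem a, _, PP_cj VV_mem b, fun e => absurd ((F.cj_V l).1 e.symm) (by decide),
      fun e => absurd ((F.cj_V l').1 e.symm) (by decide), fun e => absurd ((F.cj_eq l l').1 e) (by decide),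
      mem_cj_of_comm (F.comm l) F.zV, mem_cj_of_comm (F.comm l') F.zV, fun r hr k => ?_⟩
    obtain ⟨i, a, t, rfl⟩ := F.pt hr k
    rw [F.cj_V t, F.cj_eq t l, F.cj_eq t l']
    clear t hr k; revert i; decide
  · obtain ⟨i, a, l, rfl⟩ := F.pt hq k
    rcases F.VL h with t | t
    · obtain ⟨w, k⟩ := F.exI t
      exact F.zero.1 (m_meet _ w (ne l n) ((F.VQ k).1 h) ((F.mem_pt l k).1 h') ▸ k)
    · refine absurd (m_sw _ ((F.cj_V (F.mul (F.mul (F.inv l) t) l)).1 (cj_eq_of_mem (mem_cj.1 h')))) (ne l n)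
  · obtain ⟨i, a, l, rfl⟩ := F.pt hq k
    refine (F.VL h).resolve_right fun t => ne l n (m_sw _ ((F.cj_V (F.mul (F.mul (F.inv l) t) l)).1 ?_))
    rw [cj_mul, cj_mul, e, cj_inv_cj]
  · refine (F.VL ha).imp_right fun t => (F.VL hb).imp_right fun t' => F.one.1 ?_
    have := F.mul t t'
    rwa [show a1 * a1 = 1 by decide] at this
  · obtain ⟨w, l, e, n, n'⟩ := key b h k n n1
    obtain ⟨t, e1, e2, e3⟩ := (m_five w e n n').1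
    obtain ⟨u, l'⟩ := F.srj (P0 t)
    refine ⟨u, (F.L1 l').2 (.inr ⟨t, rfl⟩), (F.VQ l').2 e1, F.mem l', fun e => ?_, fun k => ?_⟩
    · exact absurd (F.unq l' (e ▸ F.Iz)) (m_P0_ne t)
    · exact ((F.L1 (F.add l' l)).1 k).elim (fun e => e2 (F.unq (F.add l' l) (e ▸ F.Iz))) e3
  · obtain ⟨w, l, e, n, n'⟩ := key b h k n n1
    obtain ⟨t, e1, e2⟩ := (m_five w e n n').2
    obtain ⟨u, l'⟩ := F.srj (P0 t)
    exact ⟨u, (F.L1 l').2 (.inr ⟨t, rfl⟩), (F.VQ l').2 e1, (F.L1 (F.add l' l)).2 (.inr e2)⟩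
  · obtain ⟨w, l⟩ := F.exI k
    obtain ⟨t, rfl⟩ := ((F.L1 l).1 h).resolve_left n
    rw [← sm_g3 t, ← act_P0] at l
    obtain ⟨a, l', rfl⟩ := F.exists_cnj F.Is (by decide) l
    obtain ⟨E, h1, h2, h3⟩ := F.plane
    refine ⟨cj a E, mem_cj_of_comm (F.comm l') h1, conj_mem_cj.2 h2, fun v hv n => ?_⟩
    simpa [mul_assoc] using pl_cj a (h3 _ (mem_cj.1 hv) fun e => n (conj_eq_one_iff.1 (by rwa [inv_inv])))

omit [Finite G] in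
theorem ncard_pre (S : Set M8) : {a | ∃ w ∈ S, I a w}.ncard = 2 * S.ncard := by
  choose σ h using F.srj
  have i1 : Function.Injective σ := fun v w e => F.unq (h v) (e ▸ h w)
  have i2 : Function.Injective fun w => σ w * z := fun v w e => i1 (mul_right_cancel e)
  have := Set.ncard_union_eq (s := σ '' S) (t := (fun w => σ w * z) '' S) (Set.disjoint_left.2 (by
    rintro _ ⟨v, -, rfl⟩ ⟨w, -, e : σ w * z = σ v⟩
    obtain rfl := F.unq (h v) (e ▸ F.mul_z (h w))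
    exact F.L.ne_one (mul_eq_left.1 e)))
  rw [Set.ncard_image_of_injective S i1, Set.ncard_image_of_injective S i2, ← two_mul] at this
  rw [← this]
  congr 1
  ext a
  refine ⟨fun ⟨w, k, l⟩ => (F.eq (h w) l).imp (fun e => ⟨w, k, e.symm⟩) fun e => ⟨w, k, e.symm⟩, ?_⟩
  rintro (⟨w, k, rfl⟩ | ⟨w, k, rfl⟩)
  exacts [⟨w, k, h w⟩, ⟨w, k, F.mul_z (h w)⟩]

theorem cards : (Cl z ∩ VV z Lf).ncard = 35 ∧ Nat.card (VV z Lf) = 64 := by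
  have c1 : ((VV z Lf : Set G) ∩ Qd z).ncard = 32 := by
    rw [show (VV z Lf : Set G) ∩ Qd z = {a | ∃ w ∈ {w : M8 | w.2 = 0}, I a w} from Set.ext fun a =>
      ⟨fun h => (F.exI h.2).imp fun w k => ⟨(F.VQ k).1 h.1, k⟩, fun ⟨w, h, k⟩ => ⟨(F.VQ k).2 h, F.mem k⟩⟩,
      F.ncard_pre, Set.ncard_eq_toFinset_card']
    decide +kernel
  have c2 : ((VV z Lf : Set G) \ Qd z).ncard = 32 := by
    rw [← c1, ← Set.ncard_image_of_injective _ (mul_left_injective y)]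
    congr 1
    ext a
    refine ⟨?_, fun h => ⟨a * y, ⟨mul_mem h.1 F.yV, fun k => F.yQ ((mul_mem_cancel_left h.2).1 k)⟩, ?_⟩⟩
    · rintro ⟨a, h, rfl⟩
      exact ⟨mul_mem h.1 F.yV, (F.Vy h.1 h.2).elim fun _ k => F.mem k.1⟩
    · simp only [mul_assoc, F.yy, mul_one]
  have c3 : (Cl z ∩ VV z Lf ∩ Qd z).ncard = 19 := by
    rw [show Cl z ∩ VV z Lf ∩ Qd z = insert z {a | ∃ w ∈ {w : M8 | w.2 = 0 ∧ Pure w}, I a w} from Set.ext fun a =>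
      ⟨fun h => (F.exI h.2).elim fun w k => ((F.L1 k).1 h.1.1).imp_right fun t => ⟨w, ⟨(F.VQ k).1 h.1.2, t⟩, k⟩,
        fun h => h.elim (fun e => by rw [e]; exact ⟨⟨self_mem_Cl _, F.zV⟩, F.L.mem⟩) fun ⟨w, h, k⟩ =>
          ⟨⟨(F.L1 k).2 (.inr h.2), (F.VQ k).2 h.1⟩, F.mem k⟩⟩,
      Set.ncard_insert_of_notMem (by exact fun ⟨w, ⟨_, t, e⟩, k⟩ => m_P0_ne t (e ▸ F.unq k F.Iz)), F.ncard_pre,
      Set.ncard_eq_toFinset_card']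
    decide +kernel
  have c4 : (((VV z Lf : Set G) \ Qd z) \ Cl z).ncard = ((Cl z ∩ VV z Lf) \ Qd z).ncard := by
    rw [← Set.ncard_image_of_injective _ (mul_left_injective z)]
    congr 1
    ext a
    refine ⟨?_, fun h => ⟨a * z, ⟨⟨mul_mem h.1.2 F.zV, fun k => h.2 ((mul_mem_cancel_right F.L.mem).1 k)⟩,
      (F.outQ h.1.2 h.2).1 h.1.1⟩, ?_⟩⟩
    · rintro ⟨a, ⟨h, k⟩, rfl⟩
      exact ⟨⟨not_not.1 (mt (F.outQ h.1 h.2).2 k), mul_mem h.1 F.zV⟩, fun k => h.2 ((mul_mem_cancel_right F.L.mem).1 k)⟩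
    · simp only [mul_assoc, F.L.sq, mul_one]
  have c5 := Set.ncard_inter_add_ncard_sdiff_eq_ncard ((VV z Lf : Set G) \ Qd z) (Cl z)
  rw [c4, c2, Set.inter_comm, ← Set.inter_sdiff_assoc] at c5
  rw [← Set.ncard_inter_add_ncard_sdiff_eq_ncard _ (Qd z : Set G), c3, ← SetLike.coe_sort_coe, Nat.card_coe_set_eq,
    ← Set.ncard_inter_add_ncard_sdiff_eq_ncard (VV z Lf : Set G) (Qd z : Set G), c1, c2]
  omega

end Fx

theorem Cl_cj (g z : G) : Cl (g * z * g⁻¹) = Cl z :=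
  Set.ext fun _ => ⟨fun ⟨k, e⟩ => ⟨k * g, by rw [e, conj_conj]⟩, fun ⟨k, e⟩ => ⟨k * g⁻¹, by rw [e]; group⟩⟩

theorem VV_cj (g z : G) (Lf : G → G3 → Prop) :
    VV (g * z * g⁻¹) (fun c γ => Lf (g⁻¹ * c * g) γ) = cj g (VV z Lf) := by
  have h : ∀ u, u ∈ UU (g * z * g⁻¹) (fun c γ => Lf (g⁻¹ * c * g) γ) ↔ g⁻¹ * u * g ∈ UU z Lf := fun u => by
    refine and_congr (by rw [Qd_conj, mem_cj]) ⟨fun h c l => ?_, fun h c l => ?_⟩
    · rw [← cj_inj (g := g), ← cj_inj (g := g) (b := _ * z)]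
      simpa [mul_assoc] using h (g * c * g⁻¹) (by simpa [mul_assoc] using l)
    · have := h _ l
      rw [← cj_inj (g := g), ← cj_inj (g := g) (b := _ * z)] at this
      simpa [mul_assoc] using this
  ext v
  rw [mem_cj]
  refine ⟨fun k u t => ?_, fun k u t => ?_⟩
  · rw [← cj_inj (g := g)]
    simpa [mul_assoc] using k (g * u * g⁻¹) ((h _).2 (by simpa [mul_assoc] using t))
  · have := k _ ((h u).1 t)
    rw [← cj_inj (g := g)] at this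
    simpa [mul_assoc] using this

theorem PP_eq (g z : G) (Lf : G → G3 → Prop) : PP (g * z * g⁻¹) (fun c γ => Lf (g⁻¹ * c * g) γ) = PP z Lf :=
  Set.ext fun _ => ⟨fun ⟨k, e⟩ => ⟨k * g, by rw [e, VV_cj, cj_mul]⟩,
    fun ⟨k, e⟩ => ⟨k * g⁻¹, by rw [e, VV_cj, cj_mul, cj_inv_cj]⟩⟩

namespace Hyp

variable {z : G} {Lf : G → G3 → Prop} (H : Hyp z Lf)
include H

theorem cjH (g : G) : Hyp (g * z * g⁻¹) fun c γ => Lf (g⁻¹ * c * g) γ := by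
  have t : ∀ c, c * (g * z * g⁻¹) = g * z * g⁻¹ * c ↔ g⁻¹ * c * g * z = z * (g⁻¹ * c * g) := fun c => by
    rw [← cj_inj (g := g⁻¹)]; simp [mul_assoc]
  refine ⟨H.L3_Cl ⟨g, rfl⟩, by rw [Qd_conj, card_cj, H.card], fun h => (t _).2 (H.comm h), fun h => H.ex ((t _).1 h),
    fun γ => (H.surj γ).elim fun c l => ⟨g * c * g⁻¹, by simpa [mul_assoc] using l⟩,
    fun h k => by simpa [mul_assoc] using H.mul h k, H.uniq, fun {_} => by rw [H.one, Qd_conj, mem_cj], ?_⟩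
  obtain ⟨s, a, b, c⟩ := H.fused
  exact ⟨_, Cl_cj g z ▸ Cl_conj a g, Qd_conj g z ▸ conj_mem_cj.2 b, by rwa [Ne, cj_inj]⟩

variable [Finite G]

theorem exists_fx : ∃ s I x c y, Fx z Lf s I x c y :=
  let ⟨s, I, a, b, c⟩ := H.exists_model; ⟨s, I, Fm.exists_fx ⟨b, a, c⟩⟩

theorem symm {d e : G} (hd : d ∈ Cl z) (he : e ∈ Cl z) (h : e ∈ Qd d) : d ∈ Qd e := by
  obtain ⟨g, rfl⟩ := hd
  rw [← Cl_cj g] at he
  obtain ⟨k, rfl⟩ := he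
  rw [Qd_conj k]
  exact (H.cjH g).L.mem_map_conj_of_mem (by rw [(H.cjH g).card]; norm_num) h

theorem geo : Geo (Cl z) Qd (PP z Lf) := by
  obtain ⟨s, I, x, c, y, F⟩ := H.exists_fx
  refine ⟨fun _ => Cl_conj, fun _ => PP_cj, Qd_conj, fun h => (H.L3_Cl h).ne_one rfl, ?_, fun _ h => (H.L3_Cl h).mem,
    fun _ hd _ he => H.symm hd he, ?_, fun d hd p hp k => ?_, ?_, ?_⟩
  · rintro _ ⟨g, rfl⟩ v h
    have := F.Vsq (mem_cj.1 h)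
    rwa [← inv_inv g, inv_inv g⁻¹, conj_mul, conj_eq_one_iff] at this
  · rintro _ ⟨g, rfl⟩
    exact ⟨_, ⟨g, rfl⟩, conj_mem_cj.2 F.zV⟩
  · obtain ⟨g, rfl, rfl⟩ := F.flag' hd hp k
    obtain ⟨s, I, x, c, y, F⟩ := (H.cjH g).exists_fx
    have := F.loc
    rwa [Cl_cj, PP_eq, VV_cj] at this
  all_goals
    rintro _ ⟨g, rfl⟩
    obtain ⟨s, I, x, c, y, F⟩ := (H.cjH g).exists_fx
    have := F.cards
    rw [Cl_cj, VV_cj] at this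
  exacts [this.1, this.2]

end Hyp

end H80.O8
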