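import Mathlib
import Cfsg.Agent.Lib.O8C.Loc
import Cfsg.Agent.Lib.O8C.Cent

/-! Involution centralisers `2^{1+8}.(S₃ × S₃ × S₃)`: simplicity and the stabiliser of a component (helper80). -/

set_option autoImplicit false

namespace H80.O8

open Subgroup H68 H95 Cfsg

universe u

variable {G : Type u} [Group G]

def e2 : G3 ≃* G3 where
  toFun γ := (γ.2.1, γ.1, γ.2.2)
  invFun γ := (γ.2.1, γ.1, γ.2.2)
  left_inv _ := rfl
  right_inv _ := rfl
  map_mul' _ _ := rfl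

def e3 : G3 ≃* G3 where
  toFun γ := (γ.2.2, γ.2.1, γ.1)
  invFun γ := (γ.2.2, γ.2.1, γ.1)
  left_inv _ := rfl
  right_inv _ := rfl
  map_mul' _ _ := rfl

/-- the stabiliser of a component -/
def M0 (z : G) : Subgroup G := closure {g | g * z * g⁻¹ ∈ Qd z}

theorem M0_of {z g : G} (h : g * z * g⁻¹ ∈ Qd z) : g ∈ M0 z := subset_closure h

theorem m_nt : ∀ γ ∈ A0, γ ≠ 1 → ∃ w ∈ E4, act γ w ≠ w := by decide +kernel

theorem m_three : ∀ t, B0 (P0 t) v0 = 0 → act a1 (P0 t) = P0 t ∨ act a2 (P0 t) = P0 t ∨ act a3 (P0 t) = P0 t := by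
  decide +kernel

theorem m_gen : ∀ σ : S3, ∃ a b : S3, σ = a * sw * a⁻¹ ∨ σ = a * sw * a⁻¹ * (b * sw * b⁻¹) := by decide +kernel

theorem Fx.invol [Finite G] {z : G} {Lf : G → G3 → Prop} {s : G} {I : G → M8 → Prop} {x c y : G}
    (F : Fx z Lf s I x c y) {d : G} (h : d * z = z * d) (dd : d * d = 1) (n : d ∉ Qd z) :
    ∃ g, g * z = z * g ∧ g * d * g⁻¹ ∈ Qd s := by
  have p := F.pair'
  obtain ⟨γ, l⟩ := F.ex h
  have γγ : γ * γ = 1 := F.uniq (F.mul l l) (F.one.2 (dd ▸ one_mem _))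
  obtain ⟨δ, hδ⟩ := exists_conj_A0 (zpowers γ) fun δ k => by
    rcases (mem_zpowers_iff_of_sq γγ).1 k with rfl | rfl
    exacts [mul_one 1, γγ]
  replace hδ := hδ γ (mem_zpowers γ)
  have n' : δ * γ * δ⁻¹ ≠ 1 := fun e => n (F.one.1 (conj_eq_one_iff.1 e ▸ l))
  obtain ⟨a, la⟩ := F.surj δ
  obtain ⟨b, hb, lb, bb⟩ : ∃ b ∈ Qd s, Lf b (δ * γ * δ⁻¹) ∧ b * b = 1 := by
    obtain ⟨b, hb, lb⟩ := F.S.lift _ hδ
    obtain ⟨w, hw, k⟩ := m_nt _ hδ n'
    obtain ⟨e, he⟩ := F.srj w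
    have he' := (F.L2 he).2 hw
    rcases p.h'.sq_mem hb with t | t
    · exact ⟨b, hb, lb, t⟩
    refine ⟨_, mul_mem hb he', F.mulQ lb (F.mem he), (p.h'.sq_mem (mul_mem hb he')).resolve_right fun t' =>
      k ((F.fix_iff lb he).2 (.inl ?_))⟩
    rw [← t, mul_assoc, mul_right_inj, ← eq_inv_mul_iff_mul_eq,
      inv_eq_of_mul_eq_one_right (p.E_elementary ⟨F.mem he, he'⟩)] at t'
    rw [t', mul_inv_cancel_right]
  obtain ⟨u, hu, e⟩ := F.coset lb (F.conj la l) bb (by rw [conj_mul, dd]; group) (free_A0 _ hδ n')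
  refine ⟨u⁻¹ * a, F.comm (F.Qmul (inv_mem hu) la), ?_⟩
  rw [← conj_conj]
  rcases e with e | e <;> rw [e, conj_conj, inv_mul_cancel, one_mul, inv_one, mul_one]
  exacts [hb, mul_mem hb p.zQ]

namespace Hyp

variable {z : G} {Lf : G → G3 → Prop} (H : Hyp z Lf)
include H

theorem perm (e : G3 ≃* G3) : Hyp z fun c γ => Lf c (e γ) :=
  ⟨H.L, H.card, H.comm, fun h => (H.ex h).elim fun γ l => ⟨e.symm γ, by simpa using l⟩, fun _ => H.surj _,
    fun h k => map_mul e _ _ ▸ H.mul h k, fun h k => e.injective (H.uniq h k), by rw [map_one]; exact H.one, H.fused⟩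

theorem HM {g : G} (h : g * z = z * g) : g ∈ M0 z :=
  subset_closure (show _ ∈ Qd z by rw [h, mul_inv_cancel_right]; exact H.L.mem)

theorem mem_of_eq {g m : G} (h : m ∈ M0 z) (e : g * z * g⁻¹ = m * z * m⁻¹) : g ∈ M0 z :=
  (mul_mem_cancel_left (inv_mem h)).1 (H.HM (by rw [← mul_inv_eq_iff_eq_mul, ← conj_conj, e]; group))

variable [Finite G]

theorem UU_le {u : G} (h : u ∈ UU z Lf) : u ∈ VV z Lf := by
  obtain ⟨s, I, x, c, y, F⟩ := H.exists_fx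
  obtain ⟨w, k⟩ := F.exI h.1
  exact (F.VQ k).2 ((F.mem_UU k).1 h)

theorem h2 {g : G} (h : g * z * g⁻¹ ∈ M0 z) : g ∈ M0 z := by
  obtain ⟨s, I, x, c, y, F⟩ := H.exists_fx
  obtain ⟨S, -, hS⟩ := H92.Smith.exists_sylow H.L
  have := Fact.mk Nat.prime_two
  obtain ⟨m, hm, e⟩ := (sylowIn_of_le S fun g k => H.HM (hS g k)).exists_cj_le
    (isPGroup_zpowers (k := 1) (by simpa [pow_two] using (H.L3_Cl ⟨g, rfl⟩).sq)) (zpowers_le.2 h)
  have k := hS _ (e (conj_mem_cj.2 (mem_zpowers _)))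
  rw [conj_conj] at k
  refine (mul_mem_cancel_left hm).1 ?_
  by_cases n : m * g * z * (m * g)⁻¹ ∈ Qd z
  · exact subset_closure n
  obtain ⟨a, h1, h2⟩ := F.invol k (H.L3_Cl ⟨_, rfl⟩).sq n
  rw [← F.xz, Qd_conj, mem_cj, ← inv_inv x, inv_inv x⁻¹, conj_conj, conj_conj] at h2
  have h3 : x⁻¹ * a * (m * g) ∈ M0 z := subset_closure h2
  rwa [mul_mem_cancel_left (mul_mem (inv_mem (M0_of (F.xz ▸ F.S.mem))) (H.HM h1))] at h3

theorem reach {k : G} (h : k ∈ M0 z) : Reach (Cl z) (PP z Lf) (VV z Lf) (cj k (VV z Lf)) := by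
  obtain ⟨s, I, x, c, y, F⟩ := H.exists_fx
  have Γ := H.geo
  let R : Subgroup G :=
    { carrier := {k | Reach (Cl z) (PP z Lf) (VV z Lf) (cj k (VV z Lf))}
      mul_mem' := fun {a b} h k => .trans h (cj_mul a b _ ▸ Γ.reach_cj a k)
      one_mem' := by change Reach _ _ _ _; rw [cj_one]; exact .refl
      inv_mem' := fun {a} h => by
        have := Γ.reach_cj a⁻¹ (Γ.reach_symm VV_mem h)
        rwa [cj_inv_cj] at this }
  have h1 : ∀ g, g * z = z * g → g ∈ R := fun g h =>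
    .single ⟨PP_cj VV_mem g, z, self_mem_Cl z, F.zV, mem_cj_of_comm h F.zV⟩
  refine (closure_le R).2 (fun g (k : g * z * g⁻¹ ∈ Qd z) => ?_) h
  obtain ⟨w, l⟩ := F.exI k
  rcases (F.L1 l).1 ⟨g, rfl⟩ with e | ⟨t, rfl⟩
  · exact h1 g (mul_inv_eq_iff_eq_mul.1 e)
  rw [← sm_g3 t, ← act_P0] at l
  obtain ⟨a, l', e⟩ := F.exists_cnj F.Is (by decide) l
  have h2 : x ∈ R := by change Reach _ _ _ _; rw [F.xV]; exact .refl
  refine (mul_mem_cancel_left (inv_mem (mul_mem (h1 a (F.comm l')) h2))).1 (h1 _ ?_)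
  rw [← mul_inv_eq_iff_eq_mul, ← conj_conj, ← e, ← F.xz]; group

theorem cent_le {b : G} (h : b ∈ VV z Lf) (n : b ≠ 1) : centralizer {b} ≤ M0 z := by
  obtain ⟨s, I, x, c, y, F⟩ := H.exists_fx
  refine H.geo.cent_le VV_mem (fun v k => H.HM (F.Vz k)) ?_ (fun _ => H.reach) h n
  rintro _ ⟨k, rfl⟩ h g h'
  rw [conj_conj] at h'
  exact (mul_mem_cancel_right (H.h2 h)).1 (H.h2 h')

theorem h3 {d : G} (hd : d ∈ Cl z) (h : d * z = z * d) (n : d ≠ z) : centralizer {z * d} ≤ M0 z := by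
  obtain ⟨s, I, x, c, y, F⟩ := H.exists_fx
  by_cases k : d ∈ Qd z
  · obtain ⟨g, e⟩ := F.inQ hd k n
    have hg : g ∈ M0 z := M0_of (e ▸ mul_mem k H.L.mem)
    intro a ha
    rw [mem_cent_iff, ← h, e] at ha
    exact (mul_mem_cancel_right hg).1 (H.mem_of_eq hg (by rw [← conj_conj, ha, mul_inv_cancel_right]))
  obtain ⟨g, gz, h1⟩ := F.invol h (H.L3_Cl hd).sq k
  obtain ⟨γ, lg⟩ := H.ex gz
  suffices centralizer {z * (g * d * g⁻¹)} ≤ M0 z from fun a ha => by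
    have := this (x := g * a * g⁻¹) (by rw [mem_cent_iff, ← H.conj_z lg, conj_mul, conj_mul, conj_mul, mem_cent_iff.1 ha])
    rwa [mul_mem_cancel_right (inv_mem (H.HM gz)), mul_mem_cancel_left (H.HM gz)] at this
  have k' : g * d * g⁻¹ ∉ Qd z := fun t => k (by simpa [mul_assoc] using H.conj_mem (H.inv lg) t)
  have h' : g * d * g⁻¹ * z = z * (g * d * g⁻¹) := by rw [← H.conj_z lg, conj_mul, conj_mul, h]
  replace hd := Cl_conj hd g
  generalize g * d * g⁻¹ = d at hd k' h' h1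
  rw [← F.xz, Qd_conj, mem_cj] at h1
  obtain ⟨d, rfl⟩ : ∃ c, d = x * c * x⁻¹ := ⟨x⁻¹ * d * x, by group⟩
  rw [show x⁻¹ * (x * d * x⁻¹) * x = d by group] at h1
  rw [← F.xs, conj_mul, conj_mul, cj_inj] at h'
  obtain ⟨w, l⟩ := F.exI h1
  obtain ⟨t, rfl⟩ := ((F.L1 l).1 (Cl_conj'.1 hd)).resolve_left fun e => k' (by rw [e, F.xz]; exact F.S.mem)
  have key : ∀ e : G3 ≃* G3, e a1 ∈ A0 → act (e a1) (P0 t) = P0 t → centralizer {z * (x * d * x⁻¹)} ≤ M0 z :=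
      fun e he f => by
    have H' := H.perm e
    have m : ∀ {a v}, I a v → act (e a1) v = v → a ∈ VV z fun c γ => Lf c (e γ) := fun l f =>
      H'.UU_le ⟨F.mem l, fun c k => (F.fix_iff k l).1 f⟩
    have zV := m F.Iz (F.r_zero _)
    have : Qd z ⊔ Qd s ≤ normalizer _ := sup_le
      (fun a ha => mem_normalizer_iff_cj.2 ((H'.geo.loc z (self_mem_Cl z) _ VV_mem zV).fix a ha)) fun a ha =>
        mem_normalizer_iff_cj.2 ((H'.geo.loc s F.S.cl _ VV_mem (m F.Is (F.fixA F.S F.Is he))).fix a ha)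
    exact H'.cent_le (mul_mem zV (conj_mem_of_normalizer (this F.xX) (m l f))) fun t =>
      k' (eq_inv_of_mul_eq_one_right t ▸ inv_mem H.L.mem)
  rcases m_three t ((F.comm_iff l F.Is).1 h') with f | f | f
  exacts [key (.refl _) (by decide) f, key e2 (by decide) f, key e3 (by decide) f]

theorem lift_N {N : Subgroup G} [N.Normal] (h : z ∈ N) (σ : S3) : ∃ c ∈ N, Lf c (σ, 1, 1) := by
  obtain ⟨s, I, x, c, y, F⟩ := H.exists_fx
  have k : ∀ a : S3, ∃ c ∈ N, Lf c (a * sw * a⁻¹, 1, 1) := fun a => by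
    obtain ⟨b, l⟩ := H.surj (a, 1, 1)
    obtain ⟨g, e⟩ := F.yD
    exact ⟨_, Normal.conj_mem ‹_› _ (e ▸ Normal.conj_mem ‹_› _ h g) b, by simpa [a1] using H.conj l F.Ly⟩
  obtain ⟨a, b, rfl | rfl⟩ := m_gen σ
  · exact k a
  obtain ⟨c, h1, l⟩ := k a
  obtain ⟨d, h2, l'⟩ := k b
  exact ⟨_, mul_mem h1 h2, by simpa using H.mul l l'⟩

theorem simple : IsSimpleGroup G := by
  have : Nontrivial G := ⟨z, 1, H.L.ne_one⟩
  have := Fact.mk Nat.prime_two
  refine ⟨fun N hN => or_iff_not_imp_left.2 fun n => ?_⟩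
  obtain ⟨s, I, x, c, y, F⟩ := H.exists_fx
  obtain ⟨S, QS, hS⟩ := H92.Smith.exists_sylow H.L
  have zN : z ∈ N := by
    obtain ⟨t, ht⟩ := exists_prime_orderOf_dvd_card' (G := N) 2 (even_iff_two_dvd.1 (Nat.not_odd_iff_even.1 fun o => n
      ((H.L.isLarge_of_conj_mem (by rw [H.card]; norm_num) (F.xz ▸ F.S.mem) (F.xz ▸ F.S.ne)).2.2.2 N o
        (by rw [normalizer_eq_top]; exact le_top))))
    rw [← orderOf_coe] at ht
    obtain ⟨m, -, e⟩ := (sylowIn_top S).exists_cj_le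
      (isPGroup_zpowers (k := 1) (x := (t : G)) (by rw [pow_one, ← ht, pow_orderOf_eq_one])) le_top
    have k := hS _ (e (conj_mem_cj.2 (mem_zpowers _)))
    have k1 := hN.conj_mem _ t.2 m
    have k2 : m * t * m⁻¹ ≠ 1 := fun e => ne_one_of_orderOf_eq_two ht (conj_eq_one_iff.1 e)
    generalize m * t * m⁻¹ = t at k k1 k2
    by_contra zN
    obtain ⟨u, hu, e⟩ : ∃ u ∈ Qd z, u * t ≠ t * u := by
      by_contra! e
      exact (H.L.cent t e).elim k2 fun e => zN (e ▸ k1)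
    have a1 : u * (t * u⁻¹ * t⁻¹) ∈ N := by simpa [mul_assoc] using mul_mem (hN.conj_mem _ k1 u) (inv_mem k1)
    obtain ⟨v, -, e⟩ := H.L.exists_conj (mul_mem hu (conj_mem_of_normalizer (H.L.norm t k) (inv_mem hu)))
      (fun t => e (by rw [← mul_inv_eq_one, ← t]; group)) fun e => zN (e ▸ a1)
    exact zN ((mul_mem_cancel_left a1).1 (e ▸ hN.conj_mem _ a1 v))
  have QN : ∀ a ∈ Qd z, a ∈ N := fun a ha => by
    let A : AddSubgroup M8 :=
      { carrier := {w | ∃ a ∈ N, I a w}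
        add_mem' := fun ⟨_, h, k⟩ ⟨_, h', k'⟩ => ⟨_, mul_mem h h', F.add k k'⟩
        zero_mem' := ⟨1, one_mem _, F.I1⟩
        neg_mem' := fun {w} h => by rwa [neg_eq_of_add_eq_zero_left (F.two w)] }
    obtain ⟨w, k⟩ := F.exI ha
    obtain ⟨b, hb, l⟩ : w ∈ A := (QuotientAddGroup.eq_zero_iff w).1 (DFunLike.congr_fun
      (ext_P0 (f := QuotientAddGroup.mk' A) (g := 0) fun t => (QuotientAddGroup.eq_zero_iff _).2 (by
        obtain ⟨a, k⟩ := F.srj (P0 t)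
        obtain ⟨g, e⟩ := (F.L1 k).2 (.inr ⟨t, rfl⟩)
        exact ⟨a, e ▸ hN.conj_mem _ zN g, k⟩)) w)
    rcases F.eq l k with rfl | rfl
    exacts [hb, mul_mem hb zN]
  have HN : ∀ a, a * z = z * a → a ∈ N := fun a ha => by
    obtain ⟨⟨γ, δ, ε⟩, l⟩ := H.ex ha
    obtain ⟨b, h1, l1⟩ := H.lift_N zN γ
    obtain ⟨c, h2, l2⟩ := (H.perm e2).lift_N zN δ
    obtain ⟨d, h3, l3⟩ := (H.perm e3).lift_N zN ε
    exact (mul_mem_cancel_left (inv_mem (mul_mem (mul_mem h1 h2) h3))).1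
      (QN _ (H.div_mem (by simpa [e2, e3] using H.mul (H.mul l1 l2) l3) l))
  refine top_unique fun g _ => ?_
  obtain ⟨a, ha, b, hb, rfl⟩ := (sylowIn_of_le S fun g k => HN g (hS g k)).frattini (g := g)
    (by rw [normalizer_eq_top]; trivial)
  refine mul_mem ha (HN b (mul_inv_eq_iff_eq_mul.1 ((H.L.cent _ fun u hu => ?_).resolve_left
    fun e => H.L.ne_one (conj_eq_one_iff.1 e))))
  rw [← cj_inj (g := b⁻¹)]
  simpa [mul_assoc] using hS _ (conj_mem_of_normalizer' hb (QS hu))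

end Hyp

end H80.O8
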